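import Cfsg.Agent.Lib.H39.DA1
import Cfsg.Agent.S0205

/-!
S3219, piece BA2: no normal subgroups of odd order.
-/

set_option autoImplicit false
set_option linter.unusedSectionVars false
open MulAction
universe u v
namespace H21.BA2cb
open H39.DA

variable {G : Type u} {Ω : Type v} [Group G] [Finite G] [MulAction G Ω] [Finite Ω]

theorem exists_ab (N : Subgroup G) (hN : N.Normal) (hs : Group.IsSolvable N) (hne : N ≠ ⊥) :
    ∃ E : Subgroup G, E.Normal ∧ E ≤ N ∧ E ≠ ⊥ ∧ ∀ x ∈ E, ∀ y ∈ E, x * y = y * x := by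
  classical
  have hex : ∃ n, derivedSeries N n = ⊥ := hs.solvable
  obtain ⟨k, hk⟩ : ∃ k, Nat.find hex = k + 1 := by
    refine ⟨Nat.find hex - 1, ?_⟩
    have h0 : Nat.find hex ≠ 0 := by
      intro h0
      have h1 := Nat.find_spec hex
      rw [h0, derivedSeries_zero] at h1
      apply hne
      rw [eq_bot_iff]
      intro x hx
      have h2 : (⟨x, hx⟩ : N) ∈ (⊤ : Subgroup N) := Subgroup.mem_top _
      rw [h1, Subgroup.mem_bot] at h2
      exact Subgroup.mem_bot.2 (congrArg Subtype.val h2)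
    omega
  have h1 : derivedSeries N (k + 1) = ⊥ := hk ▸ Nat.find_spec hex
  have h2 : derivedSeries N k ≠ ⊥ := Nat.find_min hex (by omega)
  have hch : (derivedSeries N k).Characteristic := inferInstance
  refine ⟨(derivedSeries N k).map N.subtype, inferInstance, ?_, ?_, ?_⟩
  · rintro _ ⟨x, -, rfl⟩; exact x.2
  · intro h3
    exact h2 ((Subgroup.map_eq_bot_iff_of_injective _ N.subtype_injective).1 h3)
  · rintro _ ⟨x, hx, rfl⟩ _ ⟨y, hy, rfl⟩
    rw [derivedSeries_succ, Subgroup.commutator_eq_bot_iff_le_centralizer] at h1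
    have h3 := Subgroup.mem_centralizer_iff.1 (h1 hx) y hy
    have h4 := congrArg (Subtype.val) h3
    exact h4.symm

theorem aux {M : Type*} [CommGroup M] (ho : Odd (Nat.card M)) (A B C e : M) (h1 : C * B = e * A)
    (h2 : C * A = e * B) : A = B := by
  have h3 : B / A = A / B := by
    calc B / A = (C * B) / (C * A) := (mul_div_mul_left_eq_div _ _ _).symm
      _ = (e * A) / (e * B) := by rw [h1, h2]
      _ = A / B := mul_div_mul_left_eq_div _ _ _
  have h4 : (A / B) ^ 2 = 1 := by
    rw [pow_two]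
    nth_rewrite 1 [← h3]
    rw [div_mul_div_cancel, div_self']
  have h5 : orderOf (A / B) ∣ 2 := orderOf_dvd_of_pow_eq_one h4
  have h6 : orderOf (A / B) ∣ Nat.card M := orderOf_dvd_natCard _
  have h7 : orderOf (A / B) = 1 :=
    Nat.eq_one_of_dvd_coprimes (Nat.coprime_two_left.2 ho) h5 h6
  rwa [orderOf_eq_one_iff, div_eq_one] at h7

theorem core_bot (h : TT G Ω) {a : Ω} {s t : G} (hs : Inv s) (ht : Inv t) (hst : s * t = t * s) (_hne : s ≠ t)
    (hsa : s • a = a) (hta : t • a = a) (h1 : ∀ x : Ω, s • x = x → t • x = x) (_h2 : ∀ x : Ω, t • x = x → s • x = x)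
    (h3 : ∀ x : Ω, (s * t) • x = x → t • x = x) : ∀ N : Subgroup G, N.Normal → Odd (Nat.card N) → N = ⊥ := by
  intro N hN hNo
  by_contra hne
  have hsol : Group.IsSolvable N := Cfsg.Agent.S0205.result hNo
  obtain ⟨E, hE, hEN, hEne, hEc⟩ := exists_ab N hN hsol hne
  have hEo : Odd (Nat.card E) := hNo.of_dvd_nat (Subgroup.card_dvd_of_le hEN)
  -- transitivity
  obtain ⟨r', hr'⟩ := Subgroup.ne_bot_iff_exists_ne_one.1 hEne
  obtain ⟨r, hr, hr1⟩ : ∃ r : G, r ∈ E ∧ r ≠ 1 := ⟨(r' : G), r'.2, fun h1 => hr' (Subtype.ext h1)⟩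
  have htr : ∀ x y : Ω, ∃ g ∈ E, g • x = y := by
    obtain ⟨z, hz⟩ : ∃ x : Ω, r • x ≠ x := by
      by_contra hcon
      push Not at hcon
      exact hr1 (h.faith r hcon)
    have h4 : ∀ y : Ω, ∃ g ∈ E, g • z = y := by
      intro y
      by_cases hy : y = z
      · exact ⟨1, one_mem _, by rw [one_smul, hy]⟩
      · obtain ⟨g, hg1, hg2⟩ := h.tr z (r • z) z y (Ne.symm hz) (Ne.symm hy)
        refine ⟨g * r * g⁻¹, hE.conj_mem r hr g, ?_⟩
        have h1 : g⁻¹ • z = z := by rw [inv_smul_eq_iff, hg1]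
        rw [mul_smul, mul_smul, h1, hg2]
    intro x y
    obtain ⟨g, hg, hg1⟩ := h4 x
    obtain ⟨g', hg', hg1'⟩ := h4 y
    refine ⟨g' * g⁻¹, mul_mem hg' (inv_mem hg), ?_⟩
    rw [mul_smul, ← hg1, inv_smul_smul, hg1']
  -- regularity
  have hreg : ∀ e ∈ E, ∀ x : Ω, e • x = x → e = 1 := by
    intro e he x hx
    apply h.faith
    intro y
    obtain ⟨g, hg, rfl⟩ := htr x y
    rw [← mul_smul, hEc e he g hg, mul_smul, hx]
  have hkey : ∀ w : G, w • a = a → (∀ x : Ω, w • x = x → t • x = x) → ∀ e ∈ E, w * e = e * w → t * e = e * t := by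
    intro w hwa hw e he hwe
    have h4 : w • (e • a) = e • a := by rw [← mul_smul, hwe, mul_smul, hwa]
    have h5 := hw _ h4
    have h6 : (e⁻¹ * (t * e * t⁻¹)) • a = a := by
      have hta' : t⁻¹ • a = a := by rw [inv_smul_eq_iff, hta]
      rw [mul_smul, mul_smul, mul_smul, hta', h5, inv_smul_smul]
    have h7 := hreg _ (mul_mem (inv_mem he) (hE.conj_mem e he t)) a h6
    rw [inv_mul_eq_one] at h7
    exact (eq_mul_inv_iff_mul_eq.1 h7).symm
  have hsi : s⁻¹ = s := inv_eq_of_mul_eq_one_left hs.2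
  have hti : t⁻¹ = t := inv_eq_of_mul_eq_one_left ht.2
  have hsq : ∀ w : G, w * w = 1 → w⁻¹ = w := fun w hw => inv_eq_of_mul_eq_one_left hw
  -- `t` centralizes `E`
  have hfix : ∀ w : G, w * w = 1 → ∀ e ∈ E, w * (e * (w * e * w)) = (e * (w * e * w)) * w := by
    intro w hw e he
    have h4 : w * e * w ∈ E := by
      have := hE.conj_mem e he w
      rwa [hsq w hw] at this
    calc w * (e * (w * e * w)) = ((w * e * w) * e) * w := by group
      _ = (e * (w * e * w)) * w := by rw [hEc _ h4 e he]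
  have hstst : (s * t) * (s * t) = 1 := by
    calc (s * t) * (s * t) = s * (t * s) * t := by group
      _ = (s * s) * (t * t) := by rw [← hst]; group
      _ = 1 := by rw [hs.2, ht.2, one_mul]
  have hcen : ∀ e ∈ E, t * e = e * t := by
    intro e he
    have hA : s * e * s ∈ E := by have := hE.conj_mem e he s; rwa [hsi] at this
    have hC : t * e * t ∈ E := by have := hE.conj_mem e he t; rwa [hti] at this
    have hB : (s * t) * e * (s * t) ∈ E := by have := hE.conj_mem e he (s * t); rwa [hsq _ hstst] at this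
    have k1 : t * (e * (s * e * s)) = (e * (s * e * s)) * t :=
      hkey s hsa h1 _ (mul_mem he hA) (hfix s hs.2 e he)
    have k2 : t * (e * ((s * t) * e * (s * t))) = (e * ((s * t) * e * (s * t))) * t :=
      hkey (s * t) (by rw [mul_smul, hta, hsa]) h3 _ (mul_mem he hB) (hfix (s * t) hstst e he)
    have e1 : (t * e * t) * ((s * t) * e * (s * t)) = e * (s * e * s) := by
      calc (t * e * t) * ((s * t) * e * (s * t)) = t * e * (t * (s * t)) * e * (s * t) := by group
        _ = t * e * (t * (t * s)) * e * (s * t) := by rw [hst]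
        _ = t * e * ((t * t) * s) * e * (s * t) := by group
        _ = (t * (e * (s * e * s))) * t := by rw [ht.2]; group
        _ = (e * (s * e * s)) * t * t := by rw [k1]
        _ = e * (s * e * s) := by rw [mul_assoc _ t t, ht.2, mul_one]
    have e2 : (t * e * t) * (s * e * s) = e * ((s * t) * e * (s * t)) := by
      have h5 : t * (s * t) = s := by rw [hst, ← mul_assoc, ht.2, one_mul]
      calc (t * e * t) * (s * e * s) = t * e * (t * s) * e * s * (t * t) := by rw [ht.2]; group
        _ = t * e * (s * t) * e * (s * t) * t := by rw [← hst]; group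
        _ = (t * (e * ((s * t) * e * (s * t)))) * t := by group
        _ = (e * ((s * t) * e * (s * t))) * t * t := by rw [k2]
        _ = e * ((s * t) * e * (s * t)) := by rw [mul_assoc _ t t, ht.2, mul_one]
    letI : CommGroup E := { (inferInstance : Group E) with mul_comm := fun x y => Subtype.ext (hEc _ x.2 _ y.2) }
    have e3 : (⟨s * e * s, hA⟩ : E) = ⟨(s * t) * e * (s * t), hB⟩ :=
      aux hEo ⟨s * e * s, hA⟩ ⟨(s * t) * e * (s * t), hB⟩ ⟨t * e * t, hC⟩ ⟨e, he⟩ (Subtype.ext e1) (Subtype.ext e2)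
    have e4 : s * e * s = (s * t) * e * (s * t) := congrArg Subtype.val e3
    have e5 : (s * t) * e * (s * t) = s * (t * e * t) * s := by
      calc (s * t) * e * (s * t) = (s * t) * e * (t * s) := by rw [hst]
        _ = _ := by group
    rw [e5] at e4
    have e6 : e = t * e * t := mul_left_cancel (mul_right_cancel e4)
    calc t * e = t * e * (t * t) := by rw [ht.2, mul_one]
      _ = (t * e * t) * t := by group
      _ = e * t := by rw [← e6]
  apply ht.1
  apply h.faith
  intro y
  obtain ⟨g, hg, rfl⟩ := htr a y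
  rw [← mul_smul, hcen g hg, mul_smul, hta]

end H21.BA2cb
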