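import Mathlib
import Cfsg.Agent.Lib.H2.CF.Rel
import Cfsg.Agent.Lib.H25.DQ

/-!
S3219, piece BA2: dihedral Sylow 2-subgroups of order 8.
-/

set_option autoImplicit false
namespace H21.BA2

/-- `⟨w, τ⟩` dihedral of order eight -/
theorem d8_iso {G : Type*} [Group G] {w z τ : G} (h : H2.CF.Rel w z τ) :
    Nonempty (Subgroup.closure {w, τ} ≃* DihedralGroup 4) := by
  refine H25.DQ.nonempty_dihedral 4 w τ _ h.w4 h.t2 h.rel h.tmem ?_
  intro g
  rw [h.mem_D]
  constructor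
  · rintro (h1 | h1)
    · left; obtain ⟨i, hi⟩ := Subgroup.mem_zpowers_iff.1 h1; exact ⟨i, hi.symm⟩
    · right
      obtain ⟨i, hi⟩ := Subgroup.mem_zpowers_iff.1 h1
      refine ⟨-i, ?_⟩
      have h2 : g = w ^ i * τ := by rw [hi, mul_assoc, h.t2, mul_one]
      have h3 : τ * w ^ (-i) * τ⁻¹ = w ^ i := by
        rw [← conj_zpow, h.rel, zpow_neg, inv_zpow, inv_inv]
      rw [mul_inv_eq_iff_eq_mul] at h3
      rw [h3, h2]
  · rintro (⟨i, rfl⟩ | ⟨i, rfl⟩)
    · left; exact zpow_mem (Subgroup.mem_zpowers _) _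
    · right
      have h3 : τ * w ^ i * τ⁻¹ = w ^ (-i) := by
        rw [← conj_zpow, h.rel, zpow_neg, inv_zpow]
      rw [h.tinv] at h3
      rw [h3]; exact zpow_mem (Subgroup.mem_zpowers _) _

theorem dih {R : Type*} [Group R] [Finite R] (h16 : ¬ 16 ∣ Nat.card R) {r s : R} (hr : orderOf r = 4) (hs : s * s = 1)
    (_hs1 : s ≠ 1) (hsr : s * r * s⁻¹ = r⁻¹) (P : Sylow 2 R) : Nonempty ((P : Subgroup R) ≃* DihedralGroup 4) := by
  have hrel : H2.CF.Rel r (r * r) s := ⟨hr, rfl, hs, hsr⟩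
  obtain ⟨e⟩ := d8_iso hrel
  have hc : Nat.card (Subgroup.closure {r, s} : Subgroup R) = 8 := by
    rw [Nat.card_congr e.toEquiv, DihedralGroup.nat_card]
  have hp : IsPGroup 2 (Subgroup.closure {r, s} : Subgroup R) := IsPGroup.of_card (n := 3) (by rw [hc]; norm_num)
  obtain ⟨Q, hQ⟩ := hp.exists_le_sylow
  have hQc : Nat.card (Q : Subgroup R) ≤ 8 := by
    obtain ⟨k, hk⟩ := Q.2.exists_card_eq
    have hd : Nat.card (Q : Subgroup R) ∣ Nat.card R := Subgroup.card_subgroup_dvd_card _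
    rw [hk] at hd
    have hk3 : k ≤ 3 := by
      by_contra hcon
      exact h16 ((show (16 : ℕ) = 2 ^ 4 by norm_num) ▸ (pow_dvd_pow 2 (by omega : 4 ≤ k)).trans hd)
    rw [hk]
    calc 2 ^ k ≤ 2 ^ 3 := Nat.pow_le_pow_right (by norm_num) hk3
      _ = 8 := by norm_num
  have hQe : Subgroup.closure {r, s} = (Q : Subgroup R) := Subgroup.eq_of_le_of_card_ge hQ (by rw [hc]; exact hQc)
  have e2 : (P : Subgroup R) ≃* (Q : Subgroup R) := Sylow.equiv P Q
  exact ⟨e2.trans ((MulEquiv.subgroupCongr hQe.symm).trans e)⟩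

end H21.BA2
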