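import Cfsg.Agent.Lib.H21.BrauerSimple

set_option autoImplicit false
set_option synthInstance.maxSize 2000

/-! Natural number forms of Brauer's degree equation for `e = 2, 3`; elimination of the orders
3648, 3744, 5472. -/

namespace H21.BrauerNum

open H21.BrauerSimple H21.SimpleBasic H21.SylowTools H21.PrimeStruct

universe u

variable {G : Type u} [Group G] [Fintype G] [IsSimpleGroup G]

theorem mod_of_eq {d p : ℕ} (hp : 1 < p) {m : ℤ} (h : (d : ℤ) = 1 + p * m) : d % p = 1 := by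
  have h1 : (d : ℤ) % p = 1 % p := by rw [h, Int.add_mul_emod_self_left]
  have h2 : ((d % p : ℕ) : ℤ) = 1 := by
    rw [Int.natCast_mod, h1]
    exact Int.emod_eq_of_lt (by norm_num) (by exact_mod_cast hp)
  exact_mod_cast h2

theorem mod_of_eq' {d p : ℕ} (hp : 1 < p) {m : ℤ} (h : (d : ℤ) = -1 + p * m) : d % p = p - 1 := by
  have h1 : (d : ℤ) % p = (p - 1 : ℤ) % p := by
    rw [h, Int.add_mul_emod_self_left]
    have : (p - 1 : ℤ) = -1 + p * 1 := by ring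
    rw [this, Int.add_mul_emod_self_left]
  have h2 : ((d % p : ℕ) : ℤ) = ((p - 1 : ℕ) : ℤ) := by
    rw [Int.natCast_mod, h1, Nat.cast_sub hp.le]
    push_cast
    exact Int.emod_eq_of_lt (by omega) (by omega)
  exact_mod_cast h2

theorem dvd_of_dvd_mul {d p m : ℕ} (hp : p.Prime) (h : d ∣ p * m) (hd : ¬ p ∣ d) : d ∣ m :=
  (Nat.Coprime.symm ((Nat.Prime.coprime_iff_not_dvd hp).2 hd)).dvd_of_dvd_mul_left h

theorem e_two' {p s m : ℕ} [hp : Fact p.Prime] (P : Sylow p G) (hP : Nat.card (P : Subgroup G) = p)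
    (hPC : Nat.card (Subgroup.centralizer ((P : Subgroup G) : Set G)) = p)
    (hN : Nat.card (Subgroup.normalizer ((P : Subgroup G) : Set G)) = p * 2)
    (hs : p = s * 2 + 1) (hes : 3 < s) (hG : ¬ IsMulCommutative G) (hm : Nat.card G = p * m) :
    ∃ d : ℕ, 1 < d ∧ d ∣ m ∧
      ((d % p = 1 ∧ (d + 1) ∣ m ∧ 1 + d ^ 2 + s * (d + 1) ^ 2 ≤ Nat.card G) ∨
       (d % p = p - 1 ∧ (d - 1) ∣ m ∧ 1 + d ^ 2 + s * (d - 1) ^ 2 ≤ Nat.card G)) := by
  obtain ⟨d, f, ε₁, ε, k, h1, h2, h3, h4, h5, h6, h7, h8, h9⟩ := e_two P hP hPC hN hs hes hG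
  have hp1 := hp.out.one_lt
  have h5' := h5
  rw [hm] at h5' h6
  rcases h1 with rfl | rfl
  · have hmod := mod_of_eq hp1 h7
    have hf : f = d + 1 := by rcases h2 with rfl | rfl <;> omega
    rw [hf] at h6 h9
    refine ⟨d, h3, dvd_of_dvd_mul hp.out h5' ?_, ?_⟩
    · intro h; rw [Nat.mod_eq_zero_of_dvd h] at hmod; omega
    left
    refine ⟨hmod, dvd_of_dvd_mul hp.out h6 ?_, h9⟩
    intro h
    have h10 : (d + 1) % p = 0 := Nat.mod_eq_zero_of_dvd h
    rw [Nat.add_mod, hmod, Nat.mod_eq_of_lt hp1, Nat.mod_eq_of_lt (by omega)] at h10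
    omega
  · have hmod := mod_of_eq' hp1 h7
    have hf : f = d - 1 := by rcases h2 with rfl | rfl <;> omega
    rw [hf] at h6 h9
    refine ⟨d, h3, dvd_of_dvd_mul hp.out h5' ?_, ?_⟩
    · intro h; rw [Nat.mod_eq_zero_of_dvd h] at hmod; omega
    right
    refine ⟨hmod, dvd_of_dvd_mul hp.out h6 ?_, h9⟩
    intro h
    have h10 : (d - 1 + 2) % p = (0 + 2) % p := by
      rw [Nat.add_mod, Nat.mod_eq_zero_of_dvd h, zero_add, Nat.mod_mod, zero_add]
    have h11 : d - 1 + 2 = d + 1 := by omega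
    rw [h11, Nat.add_mod, hmod, Nat.mod_eq_of_lt hp1, zero_add] at h10
    have h12 : (p - 1 + 1) % p = 0 := by
      rw [Nat.sub_add_cancel hp1.le, Nat.mod_self]
    rw [h12, Nat.mod_eq_of_lt (by omega)] at h10
    omega

theorem e_three' {p s m : ℕ} [hp : Fact p.Prime] (P : Sylow p G)
    (hP : Nat.card (P : Subgroup G) = p)
    (hPC : Nat.card (Subgroup.centralizer ((P : Subgroup G) : Set G)) = p)
    (hN : Nat.card (Subgroup.normalizer ((P : Subgroup G) : Set G)) = p * 3)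
    (hs : p = s * 3 + 1) (hes : 4 < s) (hG : ¬ IsMulCommutative G) (hm : Nat.card G = p * m) :
    ∃ d d' f : ℕ, 1 < d ∧ 1 < d' ∧ 1 < f ∧ d ∣ m ∧ d' ∣ m ∧ f ∣ Nat.card G ∧
      ((d % p = 1 ∧ d' % p = 1 ∧ f = 1 + d + d') ∨
       (d % p = 1 ∧ d' % p = p - 1 ∧ (f + d' = 1 + d ∨ 1 + d + f = d')) ∨
       (d % p = p - 1 ∧ d' % p = p - 1 ∧ f + 1 = d + d')) ∧
      1 + d ^ 2 + d' ^ 2 + s * f ^ 2 ≤ Nat.card G := by
  obtain ⟨d, d', f, ε₁, ε₂, ε, k, k', h1, h1', h2, h3, h3', h4, h5, h5', h6, h7, h7', h8, h9⟩ :=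
    e_three P hP hPC hN hs hes hG
  have hp1 := hp.out.one_lt
  have hd : ∀ {d : ℕ}, d ∣ Nat.card G → (d % p = 1 ∨ d % p = p - 1) → d ∣ m := by
    intro d h1 h2
    rw [hm] at h1
    refine dvd_of_dvd_mul hp.out h1 ?_
    intro h; rw [Nat.mod_eq_zero_of_dvd h] at h2; omega
  rcases h1 with rfl | rfl
  · have e1 := mod_of_eq hp1 h7
    rcases h1' with rfl | rfl
    · have e2 := mod_of_eq hp1 h7'
      refine ⟨d, d', f, h3, h3', h4, hd h5 (Or.inl e1), hd h5' (Or.inl e2), h6,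
        Or.inl ⟨e1, e2, ?_⟩, h9⟩
      rcases h2 with rfl | rfl <;> omega
    · have e2 := mod_of_eq' hp1 h7'
      refine ⟨d, d', f, h3, h3', h4, hd h5 (Or.inl e1), hd h5' (Or.inr e2), h6,
        Or.inr (Or.inl ⟨e1, e2, ?_⟩), h9⟩
      rcases h2 with rfl | rfl <;> omega
  · have e1 := mod_of_eq' hp1 h7
    rcases h1' with rfl | rfl
    · have e2 := mod_of_eq hp1 h7'
      refine ⟨d', d, f, h3', h3, h4, hd h5' (Or.inl e2), hd h5 (Or.inr e1), h6,
        Or.inr (Or.inl ⟨e2, e1, ?_⟩), by linarith⟩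
      rcases h2 with rfl | rfl <;> omega
    · have e2 := mod_of_eq' hp1 h7'
      refine ⟨d, d', f, h3, h3', h4, hd h5 (Or.inr e1), hd h5' (Or.inr e2), h6,
        Or.inr (Or.inr ⟨e1, e2, ?_⟩), h9⟩
      rcases h2 with rfl | rfl <;> omega

theorem not_3648 : Nat.card G ≠ 3648 := by
  intro h
  have hG : ¬ IsMulCommutative G := not_comm_of_card_not_prime (by rw [h]; norm_num)
  have h19 : Fact (Nat.Prime 19) := ⟨by norm_num⟩
  have hP : ∀ P : Sylow 19 G, Nat.card (P : Subgroup G) = 19 :=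
    card_sylow_eq_prime (p := 19) (m := 192) h (by norm_num)
  have h1 : Nat.card (Sylow 19 G) ∣ 192 := card_sylow_dvd_of_card (a := 1) (m := 192) (by rw [h]; norm_num)
  have h2 : Nat.card (Sylow 19 G) ≡ 1 [MOD 19] := card_sylow_modEq_one 19 G
  have h3 : Nat.card (Sylow 19 G) ≠ 1 := card_sylow_ne_one hG (by rw [h]; norm_num)
  have hr : Nat.card (Sylow 19 G) = 1 + 5 * 19 := by
    have key : ∀ n ≤ 192, n ∣ 192 → n % 19 = 1 % 19 → n ≠ 1 → n = 1 + 5 * 19 := by decide +kernel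
    exact key _ (Nat.le_of_dvd (by norm_num) h1) h1 h2 h3
  obtain ⟨P⟩ := (inferInstance : Nonempty (Sylow 19 G))
  obtain ⟨c, e, hc, hN, he1, he2, hcr, hcard⟩ := structure_prime hG hP hr P
  rw [h] at hcard
  have hce : c * e = 2 := by
    have : 19 * 96 * (c * e) = 19 * 96 * 2 := by rw [← mul_assoc]; linarith
    exact Nat.eq_of_mul_eq_mul_left (by norm_num) this
  have he : e = 2 := by
    have hd : e ∣ 2 := ⟨c, by rw [← hce]; ring⟩
    rcases (Nat.dvd_prime Nat.prime_two).1 hd with h5 | h5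
    · exact absurd h5 he2
    · exact h5
  have hc1 : c = 1 := by rw [he] at hce; omega
  rw [hc1, mul_one] at hc
  rw [hc1, he, mul_one] at hN
  obtain ⟨d, hd1, hd2, hd3⟩ := e_two' (s := 9) (m := 192) P (hP P) hc hN (by norm_num) (by norm_num) hG h
  rw [h] at hd3
  have key : ∀ d < 193, d ∣ 192 → ¬ ((d % 19 = 1 ∧ (d + 1) ∣ 192 ∧ 1 + d ^ 2 + 9 * (d + 1) ^ 2 ≤ 3648) ∨
       (d % 19 = 19 - 1 ∧ (d - 1) ∣ 192 ∧ 1 + d ^ 2 + 9 * (d - 1) ^ 2 ≤ 3648)) ∨ d ≤ 1 := by decide +kernel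
  rcases key d (Nat.lt_succ_of_le (Nat.le_of_dvd (by norm_num) hd2)) hd2 with h5 | h5
  · exact h5 hd3
  · omega

theorem not_3744 : Nat.card G ≠ 3744 := by
  intro h
  have hG : ¬ IsMulCommutative G := not_comm_of_card_not_prime (by rw [h]; norm_num)
  have h13 : Fact (Nat.Prime 13) := ⟨by norm_num⟩
  have hP : ∀ P : Sylow 13 G, Nat.card (P : Subgroup G) = 13 :=
    card_sylow_eq_prime (p := 13) (m := 288) h (by norm_num)
  have h1 : Nat.card (Sylow 13 G) ∣ 288 := card_sylow_dvd_of_card (a := 1) (m := 288) (by rw [h]; norm_num)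
  have h2 : Nat.card (Sylow 13 G) ≡ 1 [MOD 13] := card_sylow_modEq_one 13 G
  have h3 : Nat.card (Sylow 13 G) ≠ 1 := card_sylow_ne_one hG (by rw [h]; norm_num)
  have hr : Nat.card (Sylow 13 G) = 1 + 11 * 13 := by
    have key : ∀ n ≤ 288, n ∣ 288 → n % 13 = 1 % 13 → n ≠ 1 → n = 1 + 11 * 13 := by decide +kernel
    exact key _ (Nat.le_of_dvd (by norm_num) h1) h1 h2 h3
  obtain ⟨P⟩ := (inferInstance : Nonempty (Sylow 13 G))
  obtain ⟨c, e, hc, hN, he1, he2, hcr, hcard⟩ := structure_prime hG hP hr P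
  rw [h] at hcard
  have hce : c * e = 2 := by
    have : 13 * 144 * (c * e) = 13 * 144 * 2 := by rw [← mul_assoc]; linarith
    exact Nat.eq_of_mul_eq_mul_left (by norm_num) this
  have he : e = 2 := by
    have hd : e ∣ 2 := ⟨c, by rw [← hce]; ring⟩
    rcases (Nat.dvd_prime Nat.prime_two).1 hd with h5 | h5
    · exact absurd h5 he2
    · exact h5
  have hc1 : c = 1 := by rw [he] at hce; omega
  rw [hc1, mul_one] at hc
  rw [hc1, he, mul_one] at hN
  obtain ⟨d, hd1, hd2, hd3⟩ := e_two' (s := 6) (m := 288) P (hP P) hc hN (by norm_num) (by norm_num) hG h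
  rw [h] at hd3
  have key : ∀ d < 289, d ∣ 288 → ¬ ((d % 13 = 1 ∧ (d + 1) ∣ 288 ∧ 1 + d ^ 2 + 6 * (d + 1) ^ 2 ≤ 3744) ∨
       (d % 13 = 13 - 1 ∧ (d - 1) ∣ 288 ∧ 1 + d ^ 2 + 6 * (d - 1) ^ 2 ≤ 3744)) ∨ d ≤ 1 := by decide +kernel
  rcases key d (Nat.lt_succ_of_le (Nat.le_of_dvd (by norm_num) hd2)) hd2 with h5 | h5
  · exact h5 hd3
  · omega

theorem not_5472 : Nat.card G ≠ 5472 := by
  intro h
  have hG : ¬ IsMulCommutative G := not_comm_of_card_not_prime (by rw [h]; norm_num)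
  have h19 : Fact (Nat.Prime 19) := ⟨by norm_num⟩
  have hP : ∀ P : Sylow 19 G, Nat.card (P : Subgroup G) = 19 :=
    card_sylow_eq_prime (p := 19) (m := 288) h (by norm_num)
  have h1 : Nat.card (Sylow 19 G) ∣ 288 := card_sylow_dvd_of_card (a := 1) (m := 288) (by rw [h]; norm_num)
  have h2 : Nat.card (Sylow 19 G) ≡ 1 [MOD 19] := card_sylow_modEq_one 19 G
  have h3 : Nat.card (Sylow 19 G) ≠ 1 := card_sylow_ne_one hG (by rw [h]; norm_num)
  have hr : Nat.card (Sylow 19 G) = 1 + 5 * 19 := by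
    have key : ∀ n ≤ 288, n ∣ 288 → n % 19 = 1 % 19 → n ≠ 1 → n = 1 + 5 * 19 := by decide +kernel
    exact key _ (Nat.le_of_dvd (by norm_num) h1) h1 h2 h3
  obtain ⟨P⟩ := (inferInstance : Nonempty (Sylow 19 G))
  obtain ⟨c, e, hc, hN, he1, he2, hcr, hcard⟩ := structure_prime hG hP hr P
  rw [h] at hcard
  have hce : c * e = 3 := by
    have : 19 * 96 * (c * e) = 19 * 96 * 3 := by rw [← mul_assoc]; linarith
    exact Nat.eq_of_mul_eq_mul_left (by norm_num) this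
  have he : e = 3 := by
    have hd : e ∣ 3 := ⟨c, by rw [← hce]; ring⟩
    rcases (Nat.dvd_prime Nat.prime_three).1 hd with h5 | h5
    · exact absurd h5 he2
    · exact h5
  have hc1 : c = 1 := by rw [he] at hce; omega
  rw [hc1, mul_one] at hc
  rw [hc1, he, mul_one] at hN
  obtain ⟨d, d', f, hd1, hd1', hf1, hd2, hd2', hf2, hd3, -⟩ :=
    e_three' (s := 6) (m := 288) P (hP P) hc hN (by norm_num) (by norm_num) hG h
  rw [h] at hf2
  have k1 : ∀ d < 289, d ∣ 288 → 1 < d → d % 19 = 1 → d = 96 := by decide +kernel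
  have k2 : ∀ d < 289, d ∣ 288 → 1 < d → d % 19 = 19 - 1 → d = 18 := by decide +kernel
  have l1 : d < 289 := Nat.lt_succ_of_le (Nat.le_of_dvd (by norm_num) hd2)
  have l2 : d' < 289 := Nat.lt_succ_of_le (Nat.le_of_dvd (by norm_num) hd2')
  rcases hd3 with ⟨h5, h6, h7⟩ | ⟨h5, h6, h7⟩ | ⟨h5, h6, h7⟩
  · rw [k1 d l1 hd2 hd1 h5, k1 d' l2 hd2' hd1' h6] at h7
    rw [h7] at hf2
    norm_num at hf2
  · rw [k1 d l1 hd2 hd1 h5, k2 d' l2 hd2' hd1' h6] at h7
    have : f = 79 := by omega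
    rw [this] at hf2
    norm_num at hf2
  · rw [k2 d l1 hd2 hd1 h5, k2 d' l2 hd2' hd1' h6] at h7
    have : f = 35 := by omega
    rw [this] at hf2
    norm_num at hf2

end H21.BrauerNum
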