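import Cfsg.Agent.Lib.H21.CountElts
import Cfsg.Agent.Lib.H21.SylowInter
import Cfsg.Agent.Lib.H21.SylowSub
import Cfsg.Agent.Lib.H76.MaxClass

set_option autoImplicit false

/-! Local structure of simple groups of order 168. -/

namespace H21.Order168

open Subgroup MulAction H21.SimpleBasic H21.SylowTools H21.CountPrime H21.PrimeAct H21.PrimeCent
  H21.PrimeStruct H21.CountElts H21.SylowInter H21.SylowSub

theorem fact7 : Fact (Nat.Prime 7) := ⟨by norm_num⟩
theorem fact3 : Fact (Nat.Prime 3) := ⟨by norm_num⟩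

attribute [local instance] fact7 fact3

variable {G : Type*} [Group G] [Finite G] [IsSimpleGroup G]

theorem noncomm (h : Nat.card G = 168) : ¬ IsMulCommutative G :=
  not_comm_of_card_not_prime (by rw [h]; norm_num)

theorem seven (h : Nat.card G = 168) :
    Nat.card (Sylow 7 G) = 8 ∧
    ∀ P : Sylow 7 G, Nat.card (P : Subgroup G) = 7 ∧
      Nat.card (centralizer ((P : Subgroup G) : Set G)) = 7 * 1 ∧
      Nat.card (normalizer ((P : Subgroup G) : Set G)) = 21 := by
  have hG := noncomm h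
  have hP : ∀ P : Sylow 7 G, Nat.card (P : Subgroup G) = 7 :=
    card_sylow_eq_prime (p := 7) (m := 24) h (by norm_num)
  have h1 : Nat.card (Sylow 7 G) ∣ 24 := card_sylow_dvd_of_card (a := 1) (m := 24) (by rw [h]; norm_num)
  have h2 : Nat.card (Sylow 7 G) ≡ 1 [MOD 7] := card_sylow_modEq_one 7 G
  have h3 : Nat.card (Sylow 7 G) ≠ 1 := card_sylow_ne_one hG (by rw [h]; norm_num)
  have hr : Nat.card (Sylow 7 G) = 1 + 1 * 7 := by
    have key : ∀ n ≤ 24, n ∣ 24 → n % 7 = 1 % 7 → n ≠ 1 → n = 1 + 1 * 7 := by decide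
    exact key _ (Nat.le_of_dvd (by norm_num) h1) h1 h2 h3
  refine ⟨hr, fun P => ⟨hP P, ?_⟩⟩
  obtain ⟨c, e, hc, hN, he1, he2, hcr, hcard⟩ := structure_prime hG hP hr P
  have hc1 : c = 1 := by simpa using hcr
  subst hc1
  rw [h] at hcard
  have he : e = 3 := by omega
  rw [he] at hN
  exact ⟨hc, hN⟩

theorem three (h : Nat.card G = 168) :
    Nat.card (Sylow 3 G) = 28 ∧
    ∀ P : Sylow 3 G, Nat.card (P : Subgroup G) = 3 ∧
      Nat.card (centralizer ((P : Subgroup G) : Set G)) = 3 * 1 ∧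
      Nat.card (normalizer ((P : Subgroup G) : Set G)) = 6 := by
  have hG := noncomm h
  have hP : ∀ P : Sylow 3 G, Nat.card (P : Subgroup G) = 3 :=
    card_sylow_eq_prime (p := 3) (m := 56) h (by norm_num)
  have h1 : Nat.card (Sylow 3 G) ∣ 56 := card_sylow_dvd_of_card (a := 1) (m := 56) (by rw [h]; norm_num)
  have h2 : Nat.card (Sylow 3 G) ≡ 1 [MOD 3] := card_sylow_modEq_one 3 G
  have h3 : Nat.card (Sylow 3 G) ≠ 1 := card_sylow_ne_one hG (by rw [h]; norm_num)
  have hr : Nat.card (Sylow 3 G) = 1 + 1 * 3 ∨ Nat.card (Sylow 3 G) = 1 + 2 * 3 ∨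
      Nat.card (Sylow 3 G) = 1 + 9 * 3 := by
    have key : ∀ n ≤ 56, n ∣ 56 → n % 3 = 1 % 3 → n ≠ 1 → n = 1 + 1 * 3 ∨ n = 1 + 2 * 3 ∨ n = 1 + 9 * 3 := by
      decide
    exact key _ (Nat.le_of_dvd (by norm_num) h1) h1 h2 h3
  have he2' : ∀ e : ℕ, e ∣ 3 - 1 → e ≠ 1 → e = 2 := by
    intro e h1 h2
    rcases (Nat.dvd_prime Nat.prime_two).1 h1 with h3 | h3
    · exact absurd h3 h2
    · exact h3
  rcases hr with hr | hr | hr
  · exfalso
    obtain ⟨P⟩ := (inferInstance : Nonempty (Sylow 3 G))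
    obtain ⟨c, e, hc, hN, he1, he2, hcr, hcard⟩ := structure_prime hG hP hr P
    have hc1 : c = 1 := by simpa using hcr
    rw [h, he2' e he1 he2, hc1] at hcard
    omega
  · exfalso
    obtain ⟨P⟩ := (inferInstance : Nonempty (Sylow 3 G))
    obtain ⟨c, e, hc, hN, he1, he2, hcr, hcard⟩ := structure_prime hG hP hr P
    have hc1 : c ≤ 2 := Nat.le_of_dvd (by norm_num) (by simpa using hcr)
    rw [h, he2' e he1 he2] at hcard
    omega
  · refine ⟨hr, fun P => ⟨hP P, ?_⟩⟩
    obtain ⟨c, e, hc, hN, he1, he2, hcr, hcard⟩ := structure_prime hG hP hr P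
    rw [h, he2' e he1 he2] at hcard
    have hc1 : c = 1 := by omega
    rw [hc1] at hc
    rw [hc1, he2' e he1 he2] at hN
    exact ⟨hc, hN⟩

theorem order_seven (h : Nat.card G = 168) {g : G} (hg : 7 ∣ orderOf g) : orderOf g = 7 := by
  obtain ⟨P, hgP, -⟩ := exists_sylow_of_dvd (fun P => ((seven h).2 P).1) hg
  have h1 := orderOf_dvd_natCard (⟨g, hgP⟩ : centralizer ((P : Subgroup G) : Set G))
  rw [Subgroup.orderOf_mk, ((seven h).2 P).2.1] at h1
  exact Nat.dvd_antisymm h1 hg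

theorem order_three (h : Nat.card G = 168) {g : G} (hg : 3 ∣ orderOf g) : orderOf g = 3 := by
  obtain ⟨P, hgP, -⟩ := exists_sylow_of_dvd (fun P => ((three h).2 P).1) hg
  have h1 := orderOf_dvd_natCard (⟨g, hgP⟩ : centralizer ((P : Subgroup G) : Set G))
  rw [Subgroup.orderOf_mk, ((three h).2 P).2.1] at h1
  exact Nat.dvd_antisymm h1 hg

theorem order_cases (h : Nat.card G = 168) (g : G) :
    orderOf g = 7 ∨ orderOf g = 3 ∨ ∃ k, k ≤ 3 ∧ orderOf g = 2 ^ k := by
  by_cases h7 : 7 ∣ orderOf g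
  · exact Or.inl (order_seven h h7)
  by_cases h3 : 3 ∣ orderOf g
  · exact Or.inr (Or.inl (order_three h h3))
  right; right
  have hd : orderOf g ∣ 168 := by rw [← h]; exact orderOf_dvd_natCard g
  have hcop : Nat.Coprime (orderOf g) 21 := by
    have e1 : Nat.Coprime (orderOf g) 3 :=
      (Nat.Coprime.symm ((Nat.Prime.coprime_iff_not_dvd (by norm_num)).2 h3))
    have e2 : Nat.Coprime (orderOf g) 7 :=
      (Nat.Coprime.symm ((Nat.Prime.coprime_iff_not_dvd (by norm_num)).2 h7))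
    exact e1.mul_right e2
  have hd8 : orderOf g ∣ 2 ^ 3 := hcop.dvd_of_dvd_mul_right (by norm_num; exact hd)
  obtain ⟨k, hk, hk'⟩ := (Nat.dvd_prime_pow Nat.prime_two).1 hd8
  exact ⟨k, hk, hk'⟩

theorem card_one : Nat.card {g : G // g = 1} = 1 := by
  rw [Nat.card_eq_one_iff_unique]
  exact ⟨⟨fun a b => Subtype.ext (a.2.trans b.2.symm)⟩, ⟨⟨1, rfl⟩⟩⟩

theorem card_seven (h : Nat.card G = 168) : Nat.card {g : G // orderOf g = 7} = 48 := by
  rw [card_orderOf_eq_prime (fun P => ((seven h).2 P).1), (seven h).1]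

theorem card_three (h : Nat.card G = 168) : Nat.card {g : G // orderOf g = 3} = 56 := by
  rw [card_orderOf_eq_prime (fun P => ((three h).2 P).1), (three h).1]

theorem card_two_elts (h : Nat.card G = 168) :
    Nat.card {g : G // g ≠ 1 ∧ ∃ k, orderOf g = 2 ^ k} = 63 := by
  have hpow : ∀ (q : ℕ), q.Prime → q ≠ 2 → ∀ k, q ≠ 2 ^ k := by
    intro q hq hq2 k hk
    have : q ∣ 2 ^ k := by rw [← hk]
    have := hq.dvd_of_dvd_pow this
    exact hq2 ((Nat.prime_dvd_prime_iff_eq hq Nat.prime_two).1 this)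
  have e1 := card_or (α := G) (fun g => orderOf g = 7) (fun g => orderOf g = 3) (by
    intro g h1 h2; rw [h1] at h2; norm_num at h2)
  have e2 := card_or (α := G) (fun g => orderOf g = 7 ∨ orderOf g = 3) (fun g => g = 1) (by
    rintro g (h1 | h1) rfl <;> rw [orderOf_one] at h1 <;> norm_num at h1)
  have e3 := card_or (α := G) (fun g => (orderOf g = 7 ∨ orderOf g = 3) ∨ g = 1)
    (fun g => g ≠ 1 ∧ ∃ k, orderOf g = 2 ^ k) (by
      rintro g ((h1 | h1) | h1) ⟨h2, k, hk⟩
      · rw [h1] at hk; exact hpow 7 (by norm_num) (by norm_num) k hk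
      · rw [h1] at hk; exact hpow 3 (by norm_num) (by norm_num) k hk
      · exact h2 h1)
  have e4 : Nat.card {g : G // ((orderOf g = 7 ∨ orderOf g = 3) ∨ g = 1) ∨
      (g ≠ 1 ∧ ∃ k, orderOf g = 2 ^ k)} = 168 := by
    rw [← h]
    apply Nat.card_congr
    refine Equiv.subtypeUnivEquiv ?_
    intro g
    rcases order_cases h g with h1 | h1 | ⟨k, -, hk⟩
    · exact Or.inl (Or.inl (Or.inl h1))
    · exact Or.inl (Or.inl (Or.inr h1))
    · by_cases hg : g = 1
      · exact Or.inl (Or.inr hg)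
      · exact Or.inr ⟨hg, k, hk⟩
  rw [e3, e2, e1, card_one, card_seven h, card_three h] at e4
  omega

theorem card_sylow_two (h : Nat.card G = 168) (T : Sylow 2 G) : Nat.card (T : Subgroup G) = 8 :=
  card_sylow_eq_pow (a := 3) (m := 21) (by rw [h]; norm_num) (by norm_num) T

theorem two (h : Nat.card G = 168) : Nat.card (Sylow 2 G) = 21 := by
  classical
  have h1 : Nat.card (Sylow 2 G) ∣ 21 := card_sylow_dvd_of_card (a := 3) (m := 21) (by rw [h]; norm_num)
  have hft : Fintype (Sylow 2 G) := Fintype.ofFinite _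
  have h2 : Nat.card {g : G // g ≠ 1 ∧ ∃ k, orderOf g = 2 ^ k} ≤ Nat.card (Sylow 2 G) * 7 := by
    let S := Σ P : Sylow 2 G, {y : (P : Subgroup G) // y ≠ 1}
    have hS : Nat.card S = Nat.card (Sylow 2 G) * 7 := by
      rw [Nat.card_sigma, Nat.card_eq_fintype_card (α := Sylow 2 G), ← Finset.card_univ,
        ← smul_eq_mul]
      apply Finset.sum_eq_card_nsmul
      intro P _
      have hftC : Fintype (P : Subgroup G) := Fintype.ofFinite _
      rw [Nat.card_eq_fintype_card, Fintype.card_subtype_compl, Fintype.card_subtype_eq,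
        ← Nat.card_eq_fintype_card, card_sylow_two h P]
    rw [← hS]
    refine Nat.card_le_card_of_surjective
      (fun s : S => (⟨(s.2.1 : G), fun h => s.2.2 (Subtype.ext h), by
        obtain ⟨n, hn⟩ := (IsPGroup.iff_orderOf.1 s.1.2) s.2.1
        exact ⟨n, by rw [Subgroup.orderOf_coe]; exact hn⟩⟩ :
          {g : G // g ≠ 1 ∧ ∃ k, orderOf g = 2 ^ k})) ?_
    rintro ⟨g, hg1, k, hk⟩
    have hp : IsPGroup 2 (Subgroup.zpowers g) := IsPGroup.of_card (n := k) (by
      rw [Nat.card_zpowers, hk])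
    obtain ⟨Q, hQ⟩ := hp.exists_le_sylow
    exact ⟨⟨Q, ⟨⟨g, hQ (mem_zpowers g)⟩, fun h => hg1 (congrArg Subtype.val h)⟩⟩, rfl⟩
  rw [card_two_elts h] at h2
  have key : ∀ n ≤ 21, n ∣ 21 → 63 ≤ n * 7 → n = 21 := by decide
  exact key _ (Nat.le_of_dvd (by norm_num) h1) h1 h2

theorem normalizer_two (h : Nat.card G = 168) (T : Sylow 2 G) :
    normalizer ((T : Subgroup G) : Set G) = T := by
  have h1 := card_normalizer_mul_card_sylow T
  rw [two h, h] at h1
  exact (Subgroup.eq_of_le_of_card_ge Subgroup.le_normalizer (by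
    rw [card_sylow_two h T]; omega)).symm

/-- centralizers of involutions are 2-groups -/
theorem isPGroup_centralizer (h : Nat.card G = 168) {z : G} (hz : orderOf z = 2) :
    IsPGroup 2 (centralizer ({z} : Set G)) := by
  have hgen : ∀ (p : ℕ) [Fact p.Prime], (∀ P : Sylow p G, Nat.card (P : Subgroup G) = p) →
      (∀ P : Sylow p G, ¬ 2 ∣ Nat.card (centralizer ((P : Subgroup G) : Set G))) →
      ¬ p ∣ Nat.card (centralizer ({z} : Set G)) := by
    intro p hp hP hC h3
    obtain ⟨⟨y, hyC⟩, hy⟩ := exists_prime_orderOf_dvd_card' p h3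
    rw [Subgroup.orderOf_mk] at hy
    obtain ⟨Q, hQ1, hQ2⟩ := exists_sylow_of_dvd hP (show p ∣ orderOf y by rw [hy])
    have hzQ : z ∈ centralizer ((Q : Subgroup G) : Set G) := by
      rw [hQ2, Subgroup.mem_centralizer_iff]
      rintro _ ⟨k, rfl⟩
      rw [Subgroup.mem_centralizer_singleton_iff] at hyC
      have h4 : Commute y z := hyC
      exact ((h4.pow_left _).zpow_left k).eq
    have h4 := orderOf_dvd_natCard (⟨z, hzQ⟩ : centralizer ((Q : Subgroup G) : Set G))
    rw [Subgroup.orderOf_mk, hz] at h4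
    exact hC Q h4
  have g3 := hgen 3 (fun P => ((three h).2 P).1) (fun P => by rw [((three h).2 P).2.1]; norm_num)
  have g7 := hgen 7 (fun P => ((seven h).2 P).1) (fun P => by rw [((seven h).2 P).2.1]; norm_num)
  have hd : Nat.card (centralizer ({z} : Set G)) ∣ 168 := by
    rw [← h]; exact Subgroup.card_subgroup_dvd_card _
  have hd8 : Nat.card (centralizer ({z} : Set G)) ∣ 2 ^ 3 := by
    have hcop : Nat.Coprime (Nat.card (centralizer ({z} : Set G))) 21 := by
      have e1 : Nat.Coprime (Nat.card (centralizer ({z} : Set G))) 3 :=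
        (Nat.Coprime.symm ((Nat.Prime.coprime_iff_not_dvd (by norm_num)).2 g3))
      have e2 : Nat.Coprime (Nat.card (centralizer ({z} : Set G))) 7 :=
        (Nat.Coprime.symm ((Nat.Prime.coprime_iff_not_dvd (by norm_num)).2 g7))
      exact e1.mul_right e2
    exact hcop.dvd_of_dvd_mul_right (by norm_num; exact hd)
  obtain ⟨k, -, hk⟩ := (Nat.dvd_prime_pow Nat.prime_two).1 hd8
  exact IsPGroup.of_card hk

/-- any nontrivial 2-element has centralizer a 2-group -/
theorem isPGroup_centralizer' (h : Nat.card G = 168) (T : Sylow 2 G) {z : G}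
    (hz : z ∈ (T : Subgroup G)) (hz1 : z ≠ 1) : IsPGroup 2 (centralizer ({z} : Set G)) := by
  obtain ⟨n, hn⟩ := (IsPGroup.iff_orderOf.1 T.2) ⟨z, hz⟩
  rw [Subgroup.orderOf_mk] at hn
  have hn0 : n ≠ 0 := by
    rintro rfl
    rw [pow_zero, orderOf_eq_one_iff] at hn
    exact hz1 hn
  obtain ⟨m, rfl⟩ := Nat.exists_eq_succ_of_ne_zero hn0
  have h2 : orderOf (z ^ (2 ^ m)) = 2 := by
    rw [orderOf_pow_of_dvd (by positivity) (by rw [hn]; exact pow_dvd_pow 2 (Nat.le_succ m)), hn,
      pow_succ]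
    exact Nat.mul_div_cancel_left 2 (by positivity)
  refine (isPGroup_centralizer h h2).to_le ?_
  intro x hx
  rw [Subgroup.mem_centralizer_singleton_iff] at hx ⊢
  exact ((show Commute x z from hx).pow_right _).eq

theorem centralizer_eq_of_central (h : Nat.card G = 168) (T : Sylow 2 G) {z : G}
    (hz : z ∈ (T : Subgroup G)) (hz1 : z ≠ 1) (hc : ∀ t ∈ (T : Subgroup G), t * z = z * t) :
    centralizer ({z} : Set G) = T :=
  T.is_maximal' (isPGroup_centralizer' h T hz hz1) (by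
    intro t ht
    rw [Subgroup.mem_centralizer_singleton_iff]
    exact hc t ht)

end H21.Order168
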