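import Cfsg.Agent.Lib.H21.Order168

set_option autoImplicit false
set_option linter.unusedSectionVars false

/-! Local structure of simple groups of order 168, part 2: the Sylow 2-subgroup is dihedral, classes
of elements. -/

namespace H21.Order168

open Subgroup MulAction H21.SimpleBasic H21.SylowTools H21.CountPrime H21.PrimeAct H21.PrimeCent
  H21.PrimeStruct H21.CountElts H21.SylowInter H21.SylowSub

attribute [local instance] fact7 fact3

section eight

variable {T : Type*} [Group T] [Finite T]

theorem index_of_order_four (hT : Nat.card T = 8) {a : T} (ha : orderOf a = 4) :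
    (zpowers a).index = 2 := by
  have h1 := Subgroup.card_mul_index (zpowers a)
  rw [Nat.card_zpowers, ha, hT] at h1
  omega

theorem conj_of_order_four (hT : Nat.card T = 8) {a : T} (ha : orderOf a = 4) (t : T) :
    t * a * t⁻¹ = a ∨ t * a * t⁻¹ = a⁻¹ := by
  classical
  have ha4 : a ^ 4 = 1 := by rw [← ha]; exact pow_orderOf_eq_one a
  have hidx := index_of_order_four hT ha
  have hn : (zpowers a).Normal := Subgroup.normal_of_index_eq_two hidx
  have h1 : t * a * t⁻¹ ∈ zpowers a := hn.conj_mem a (mem_zpowers a) t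
  have ho : orderOf (t * a * t⁻¹) = 4 := by
    rw [← ha]
    refine (SemiconjBy.orderOf_eq t ?_).symm
    change t * a = t * a * t⁻¹ * t
    group
  rw [mem_zpowers_iff_mem_range_orderOf] at h1
  obtain ⟨k, hk, hk'⟩ := Finset.mem_image.1 h1
  rw [Finset.mem_range, ha] at hk
  have hk2 : a ^ k = t * a * t⁻¹ := hk'
  rw [← hk2] at ho ⊢
  interval_cases k
  · rw [pow_zero, orderOf_one] at ho; norm_num at ho
  · left; rw [pow_one]
  · exfalso
    rw [orderOf_pow_of_dvd (by norm_num) (by rw [ha]; norm_num), ha] at ho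
    norm_num at ho
  · right
    rw [eq_inv_iff_mul_eq_one, ← pow_succ]
    exact ha4

theorem sq_central (hT : Nat.card T = 8) {a : T} (ha : orderOf a = 4) (t : T) :
    t * a ^ 2 = a ^ 2 * t := by
  have h4 : a ^ 4 = 1 := by rw [← ha]; exact pow_orderOf_eq_one a
  have h1 : t * a ^ 2 * t⁻¹ = a ^ 2 := by
    rw [← conj_pow]
    rcases conj_of_order_four hT ha t with h | h
    · rw [h]
    · rw [h, inv_pow, inv_eq_iff_mul_eq_one, ← pow_add]; exact h4
  calc t * a ^ 2 = t * a ^ 2 * t⁻¹ * t := by group
    _ = a ^ 2 * t := by rw [h1]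

theorem exists_four (hT : Nat.card T = 8) (hn : ¬ IsMulCommutative T) : ∃ a : T, orderOf a = 4 := by
  by_contra hcon
  push Not at hcon
  have h2 : ∀ x : T, x ^ 2 = 1 := by
    intro x
    have hx : orderOf x ∣ 2 ^ 3 := by
      have := orderOf_dvd_natCard x
      rw [hT] at this; exact this
    obtain ⟨k, hk, hxk⟩ := (Nat.dvd_prime_pow Nat.prime_two).1 hx
    have hk' : k ≤ 1 := by
      by_contra hk2
      push Not at hk2
      rcases (by omega : k = 2 ∨ k = 3) with rfl | rfl
      · exact hcon x (by rw [hxk]; norm_num)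
      · exact hcon (x ^ 2) (by
          rw [orderOf_pow_of_dvd (by norm_num) (by rw [hxk]; norm_num), hxk]; norm_num)
    apply orderOf_dvd_iff_pow_eq_one.1
    rw [hxk]
    exact pow_dvd_pow 2 hk'
  apply hn
  constructor
  constructor
  intro s t
  have h1 := h2 (s * t)
  have h3 := h2 s
  have h4 := h2 t
  rw [pow_two] at h1 h3 h4
  calc s * t = s * (s * t * (s * t)) * t := by rw [h1, mul_one]
    _ = (s * s) * (t * s) * (t * t) := by group
    _ = t * s := by rw [h3, h4, one_mul, mul_one]

theorem structure_eight (hT : Nat.card T = 8) (hn : ¬ IsMulCommutative T) {a : T}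
    (ha : orderOf a = 4) :
    (∀ b, b ∉ zpowers a → b * a * b⁻¹ = a⁻¹) ∧
      ((∀ b, b ∉ zpowers a → b ^ 2 = 1) ∨ (∀ b, b ∉ zpowers a → b ^ 2 = a ^ 2)) := by
  classical
  have hidx := index_of_order_four hT ha
  have h4 : a ^ 4 = 1 := by rw [← ha]; exact pow_orderOf_eq_one a
  have hconj : ∀ b, b ∉ zpowers a → b * a * b⁻¹ = a⁻¹ := by
    intro b hb
    rcases conj_of_order_four hT ha b with h | h
    · exfalso
      apply hn
      have hba : Commute b a := by
        change b * a = a * b
        calc b * a = b * a * b⁻¹ * b := by group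
          _ = a * b := by rw [h]
      have hgen : ∀ t : T, ∃ i j : ℤ, t = b ^ i * a ^ j := by
        intro t
        by_cases ht : t ∈ zpowers a
        · obtain ⟨j, rfl⟩ := ht
          exact ⟨0, j, by simp⟩
        · have h1 := (Subgroup.mul_mem_iff_of_index_two hidx (a := b⁻¹) (b := t)).2
            ⟨fun h' => absurd (by simpa using (zpowers a).inv_mem h') hb, fun h' => absurd h' ht⟩
          obtain ⟨j, hj⟩ := h1
          refine ⟨1, j, ?_⟩
          rw [zpow_one]
          have : a ^ j = b⁻¹ * t := hj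
          rw [this]; group
      constructor
      constructor
      intro s t
      obtain ⟨i, j, rfl⟩ := hgen s
      obtain ⟨i', j', rfl⟩ := hgen t
      have c1 : Commute (b ^ i) (a ^ j') := hba.zpow_zpow i j'
      have c2 : Commute (b ^ i') (a ^ j) := hba.zpow_zpow i' j
      have c3 : Commute (b ^ i) (b ^ i') := (Commute.refl b).zpow_zpow i i'
      have c4 : Commute (a ^ j) (a ^ j') := (Commute.refl a).zpow_zpow j j'
      exact (Commute.mul_left (c3.mul_right c1) (c2.symm.mul_right c4)).eq
    · exact h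
  refine ⟨hconj, ?_⟩
  have hsq : ∀ b, b ∉ zpowers a → b ^ 2 = 1 ∨ b ^ 2 = a ^ 2 := by
    intro b hb
    have h1 : b ^ 2 ∈ zpowers a := Subgroup.sq_mem_of_index_two hidx b
    rw [mem_zpowers_iff_mem_range_orderOf] at h1
    obtain ⟨k, hk, hk'⟩ := Finset.mem_image.1 h1
    rw [Finset.mem_range, ha] at hk
    have hk2 : a ^ k = b ^ 2 := hk'
    have h5 : b * a ^ k * b⁻¹ = a ^ k := by rw [hk2]; group
    rw [← conj_pow, hconj b hb, inv_pow, inv_eq_iff_mul_eq_one, ← pow_add] at h5
    have h6 : 4 ∣ k + k := by rw [← ha]; exact orderOf_dvd_of_pow_eq_one h5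
    rw [← hk2]
    rcases (by omega : k = 0 ∨ k = 2) with rfl | rfl
    · left; rw [pow_zero]
    · right; rfl
  by_cases hex : ∃ b, b ∉ zpowers a ∧ b ^ 2 = 1
  · left
    obtain ⟨b, hb, hb2⟩ := hex
    intro c hc
    have h1 := (Subgroup.mul_mem_iff_of_index_two hidx (a := b⁻¹) (b := c)).2
            ⟨fun h' => absurd (by simpa using (zpowers a).inv_mem h') hb, fun h' => absurd h' hc⟩
    obtain ⟨j, hj⟩ := h1
    have hj' : a ^ j = b⁻¹ * c := hj
    have hc' : c = b * a ^ j := by rw [hj']; group
    have h2 : b * a ^ j * b⁻¹ = (a ^ j)⁻¹ := by rw [← conj_zpow, hconj b hb, inv_zpow]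
    rw [hc', pow_two]
    calc b * a ^ j * (b * a ^ j) = (b * a ^ j * b⁻¹) * (b ^ 2) * a ^ j := by group
      _ = 1 := by rw [h2, hb2]; group
  · right
    push Not at hex
    intro b hb
    rcases hsq b hb with h | h
    · exact absurd h (hex b hb)
    · exact h

/-- number of elements of order 4 -/
theorem card_four (_hT : Nat.card T = 8) {a : T} (ha : orderOf a = 4)
    (h1 : ∀ b, b ∉ zpowers a → b ^ 2 = 1) : Nat.card {x : T // orderOf x = 4} = 2 := by
  classical
  have h4 : a ^ 4 = 1 := by rw [← ha]; exact pow_orderOf_eq_one a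
  have hne : a ≠ a⁻¹ := by
    intro h
    have : a ^ 2 = 1 := by
      rw [pow_two]; nth_rw 2 [h]; exact mul_inv_cancel a
    have h3 := orderOf_dvd_of_pow_eq_one this
    rw [ha] at h3; norm_num at h3
  have hset : {x : T | orderOf x = 4} = {a, a⁻¹} := by
    ext x
    simp only [Set.mem_ofPred_eq, Set.mem_insert_iff, Set.mem_singleton_iff]
    constructor
    · intro hx
      by_cases hxa : x ∈ zpowers a
      · rw [mem_zpowers_iff_mem_range_orderOf] at hxa
        obtain ⟨k, hk, hk'⟩ := Finset.mem_image.1 hxa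
        rw [Finset.mem_range, ha] at hk
        have hk2 : a ^ k = x := hk'
        rw [← hk2] at hx ⊢
        interval_cases k
        · rw [pow_zero, orderOf_one] at hx; norm_num at hx
        · left; rw [pow_one]
        · exfalso
          rw [orderOf_pow_of_dvd (by norm_num) (by rw [ha]; norm_num), ha] at hx
          norm_num at hx
        · right
          rw [eq_inv_iff_mul_eq_one, ← pow_succ]; exact h4
      · exfalso
        have h3 := orderOf_dvd_of_pow_eq_one (h1 x hxa)
        rw [hx] at h3; norm_num at h3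
    · rintro (rfl | rfl)
      · exact ha
      · rw [orderOf_inv]; exact ha
  have : Nat.card {x : T // orderOf x = 4} = ({a, a⁻¹} : Set T).ncard := by
    rw [← hset]; rfl
  rw [this, Set.ncard_pair hne]

theorem six_le_card_four (hT : Nat.card T = 8) {a : T} (ha : orderOf a = 4)
    (h1 : ∀ b, b ∉ zpowers a → b ^ 2 = a ^ 2) : 4 ≤ Nat.card {x : T // orderOf x = 4} := by
  classical
  have ha2 : a ^ 2 ≠ 1 := by
    intro h
    have h3 := orderOf_dvd_of_pow_eq_one h
    rw [ha] at h3; norm_num at h3
  have hcard : Nat.card {x : T // x ∉ zpowers a} = 4 := by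
    have hft : Fintype T := Fintype.ofFinite T
    rw [Nat.card_eq_fintype_card, Fintype.card_subtype_compl, ← Nat.card_eq_fintype_card,
      ← Nat.card_eq_fintype_card, hT]
    have : Nat.card {x : T // x ∈ zpowers a} = 4 := by
      change Nat.card (zpowers a) = 4
      rw [Nat.card_zpowers, ha]
    rw [this]
  have key : ∀ x : T, x ∉ zpowers a → orderOf x = 4 := by
    intro x hx
    have h2 := h1 x hx
    have h4 : a ^ 4 = 1 := by rw [← ha]; exact pow_orderOf_eq_one a
    have h5 : x ^ (2 ^ 2) = 1 := by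
      have : x ^ (2 ^ 2) = (x ^ 2) ^ 2 := by rw [← pow_mul]; norm_num
      rw [this, h2, ← pow_mul]; exact h4
    have h6 : ¬ x ^ (2 ^ 1) = 1 := by
      rw [pow_one, h2]; exact ha2
    exact orderOf_eq_prime_pow h6 h5
  refine hcard.symm.le.trans (Nat.card_le_card_of_injective (fun x : {x : T // x ∉ zpowers a} =>
    (⟨x.1, key x.1 x.2⟩ : {x : T // orderOf x = 4})) ?_)
  intro x y hxy
  exact Subtype.ext (congrArg (fun z : {x : T // orderOf x = 4} => z.1) hxy)

end eight

variable {G : Type*} [Group G] [Finite G] [IsSimpleGroup G]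

theorem sylow_noncomm (h : Nat.card G = 168) (T : Sylow 2 G) :
    ¬ IsMulCommutative (T : Subgroup G) := by
  intro hc
  apply burnside_not_le (noncomm h) (p := 2) (by rw [h]; norm_num) T
  rw [normalizer_two h T]
  exact Subgroup.le_centralizer _

/-- elements of order 4 of `T` : `C(x^2) = T` -/
theorem centralizer_sq (h : Nat.card G = 168) (T : Sylow 2 G) {x : G} (hx : x ∈ (T : Subgroup G))
    (hx4 : orderOf x = 4) : centralizer ({x ^ 2} : Set G) = T := by
  apply centralizer_eq_of_central h T (pow_mem hx 2)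
  · intro h2
    have := orderOf_dvd_of_pow_eq_one h2
    rw [hx4] at this; norm_num at this
  · intro t ht
    have h1 := sq_central (card_sylow_two h T) (a := (⟨x, hx⟩ : (T : Subgroup G)))
      (by rw [Subgroup.orderOf_mk]; exact hx4) ⟨t, ht⟩
    exact congrArg (fun z : (T : Subgroup G) => (z : G)) h1

theorem card_four_eq (h : Nat.card G = 168) (T : Sylow 2 G) :
    Nat.card {g : G // orderOf g = 4} = 21 * Nat.card {x : (T : Subgroup G) // orderOf x = 4} := by
  classical
  have hft : Fintype (Sylow 2 G) := Fintype.ofFinite _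
  let S := Σ P : Sylow 2 G, {y : (P : Subgroup G) // orderOf y = 4}
  have hS : Nat.card S = 21 * Nat.card {x : (T : Subgroup G) // orderOf x = 4} := by
    rw [Nat.card_sigma, ← two h, Nat.card_eq_fintype_card (α := Sylow 2 G), ← Finset.card_univ,
      ← smul_eq_mul]
    apply Finset.sum_eq_card_nsmul
    intro P _
    obtain ⟨g, hg⟩ := MulAction.exists_smul_eq G T P
    have e : (T : Subgroup G) ≃* (P : Subgroup G) := by
      rw [← hg]
      exact (T : Subgroup G).equivMapOfInjective _ (MulAut.conj g).injective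
    exact (Nat.card_congr (e.toEquiv.subtypeEquiv (fun x => by
      change _ ↔ orderOf (e x) = 4
      rw [MulEquiv.orderOf_eq]))).symm
  rw [← hS]
  symm
  refine Nat.card_congr (Equiv.ofBijective (fun s : S => (⟨(s.2.1 : G), by
    rw [Subgroup.orderOf_coe]; exact s.2.2⟩ : {g : G // orderOf g = 4})) ⟨?_, ?_⟩)
  · rintro ⟨P, ⟨y, hyP⟩, hy⟩ ⟨Q, ⟨z, hzQ⟩, hz⟩ hyz
    have h1 : y = z := congrArg (fun z : {g : G // orderOf g = 4} => z.1) hyz
    subst h1
    rw [Subgroup.orderOf_mk] at hy
    have h2 : P = Q := by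
      apply Sylow.ext
      rw [← centralizer_sq h P hyP hy, ← centralizer_sq h Q hzQ hy]
    subst h2
    rfl
  · rintro ⟨g, hg⟩
    have hp : IsPGroup 2 (Subgroup.zpowers g) := IsPGroup.of_card (n := 2) (by
      rw [Nat.card_zpowers, hg]; norm_num)
    obtain ⟨Q, hQ⟩ := hp.exists_le_sylow
    exact ⟨⟨Q, ⟨⟨g, hQ (mem_zpowers g)⟩, by rw [Subgroup.orderOf_mk]; exact hg⟩⟩, rfl⟩

theorem card_four_le (h : Nat.card G = 168) : Nat.card {g : G // orderOf g = 4} ≤ 63 := by
  rw [← card_two_elts h]
  refine Nat.card_le_card_of_injective (fun g : {g : G // orderOf g = 4} =>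
    (⟨g.1, by
      constructor
      · intro h1
        have := g.2
        rw [h1, orderOf_one] at this
        norm_num at this
      · exact ⟨2, by rw [g.2]; norm_num⟩⟩ : {g : G // g ≠ 1 ∧ ∃ k, orderOf g = 2 ^ k})) ?_
  intro x y hxy
  exact Subtype.ext (congrArg (fun z : {g : G // g ≠ 1 ∧ ∃ k, orderOf g = 2 ^ k} => z.1) hxy)

/-- structure of the Sylow 2-subgroup -/
theorem sylow_structure (h : Nat.card G = 168) (T : Sylow 2 G) :
    ∃ a : (T : Subgroup G), orderOf a = 4 ∧ (zpowers a).index = 2 ∧
      (∀ b, b ∉ zpowers a → b * a * b⁻¹ = a⁻¹) ∧ (∀ b, b ∉ zpowers a → b ^ 2 = 1) := by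
  have h8 := card_sylow_two h T
  obtain ⟨a, ha⟩ := exists_four h8 (sylow_noncomm h T)
  obtain ⟨h1, h2 | h2⟩ := structure_eight h8 (sylow_noncomm h T) ha
  · exact ⟨a, ha, index_of_order_four h8 ha, h1, h2⟩
  · exfalso
    have h3 := six_le_card_four h8 ha h2
    have h4 := card_four_le h
    rw [card_four_eq h T] at h4
    omega

theorem card_order_four (h : Nat.card G = 168) : Nat.card {g : G // orderOf g = 4} = 42 := by
  obtain ⟨T⟩ := (inferInstance : Nonempty (Sylow 2 G))
  obtain ⟨a, ha, hidx, h1, h2⟩ := sylow_structure h T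
  rw [card_four_eq h T, card_four (card_sylow_two h T) ha h2]

theorem no_order_eight (h : Nat.card G = 168) (g : G) : orderOf g ≠ 8 := by
  intro hg
  have hp : IsPGroup 2 (Subgroup.zpowers g) := IsPGroup.of_card (n := 3) (by
      rw [Nat.card_zpowers, hg]; norm_num)
  obtain ⟨Q, hQ⟩ := hp.exists_le_sylow
  have h1 : Subgroup.zpowers g = (Q : Subgroup G) :=
    Subgroup.eq_of_le_of_card_ge hQ (by rw [card_sylow_two h Q, Nat.card_zpowers, hg])
  apply sylow_noncomm h Q
  rw [← h1]
  infer_instance

theorem orders (h : Nat.card G = 168) (g : G) :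
    orderOf g = 1 ∨ orderOf g = 2 ∨ orderOf g = 3 ∨ orderOf g = 4 ∨ orderOf g = 7 := by
  rcases order_cases h g with h1 | h1 | ⟨k, hk, hk'⟩
  · exact Or.inr (Or.inr (Or.inr (Or.inr h1)))
  · exact Or.inr (Or.inr (Or.inl h1))
  · have := no_order_eight h g
    interval_cases k
    · left; rw [hk']; norm_num
    · right; left; rw [hk']; norm_num
    · right; right; right; left; rw [hk']; norm_num
    · exfalso; apply this; rw [hk']; norm_num

theorem card_order_two (h : Nat.card G = 168) : Nat.card {g : G // orderOf g = 2} = 21 := by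
  have e1 := card_or (α := G) (fun g => orderOf g = 4) (fun g => orderOf g = 2) (by
    intro g h1 h2; rw [h1] at h2; norm_num at h2)
  have e2 : Nat.card {g : G // orderOf g = 4 ∨ orderOf g = 2} =
      Nat.card {g : G // g ≠ 1 ∧ ∃ k, orderOf g = 2 ^ k} := by
    apply Nat.card_congr
    apply Equiv.subtypeEquivRight
    intro g
    constructor
    · rintro (h1 | h1)
      · exact ⟨by rintro rfl; rw [orderOf_one] at h1; norm_num at h1, 2, by rw [h1]; norm_num⟩
      · exact ⟨by rintro rfl; rw [orderOf_one] at h1; norm_num at h1, 1, by rw [h1]; norm_num⟩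
    · rintro ⟨h1, k, hk⟩
      rcases orders h g with h2 | h2 | h2 | h2 | h2
      · exact absurd (orderOf_eq_one_iff.1 h2) h1
      · exact Or.inr h2
      · exfalso
        rw [h2] at hk
        have h3 : 3 ∣ 2 ^ k := by rw [← hk]
        have := (by norm_num : Nat.Prime 3).dvd_of_dvd_pow h3
        norm_num at this
      · exact Or.inl h2
      · exfalso
        rw [h2] at hk
        have h3 : 7 ∣ 2 ^ k := by rw [← hk]
        have := (by norm_num : Nat.Prime 7).dvd_of_dvd_pow h3
        norm_num at this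
  rw [e2, card_two_elts h, card_order_four h] at e1
  omega

end H21.Order168
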