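import Cfsg.Agent.Lib.H21.Order168b

set_option autoImplicit false
set_option linter.unusedSectionVars false

/-! Local structure of simple groups of order 168, part 3: conjugacy classes. -/

namespace H21.Order168

open Subgroup MulAction H21.SimpleBasic H21.SylowTools H21.CountPrime H21.PrimeAct H21.PrimeCent
  H21.PrimeStruct H21.CountElts H21.SylowInter H21.SylowSub

attribute [local instance] fact7 fact3

theorem isConj_of_card {G : Type*} [Group G] [Finite G] {x : G} {P : G → Prop}
    (h1 : ∀ g, IsConj x g → P g)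
    (h2 : Nat.card {g : G // P g} ≤ Nat.card {g : G // IsConj x g}) (g : G) (hg : P g) :
    IsConj x g := by
  let ι : {g : G // IsConj x g} → {g : G // P g} := fun g => ⟨g.1, h1 g.1 g.2⟩
  have hι : Function.Injective ι := by
    intro a b hab
    exact Subtype.ext (congrArg (fun z : {g : G // P g} => z.1) hab)
  obtain ⟨a, ha⟩ := (hι.bijective_of_nat_card_le h2).2 ⟨g, hg⟩
  have : a.1 = g := congrArg (fun z : {g : G // P g} => z.1) ha
  rw [← this]
  exact a.2

theorem orderOf_of_isConj {G : Type*} [Group G] {x g : G} (h : IsConj x g) :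
    orderOf g = orderOf x := by
  obtain ⟨c, rfl⟩ := isConj_iff.1 h
  refine (SemiconjBy.orderOf_eq c ?_).symm
  change c * x = c * x * c⁻¹ * c
  group

variable {G : Type*} [Group G] [Finite G] [IsSimpleGroup G]

/-- centralizer of an element of prime order `p`, Sylow `p`-subgroups of order `p` -/
theorem card_centralizer_of_prime {p : ℕ} [hp : Fact p.Prime]
    (hP : ∀ P : Sylow p G, Nat.card (P : Subgroup G) = p) {c : ℕ}
    (hc : ∀ P : Sylow p G, Nat.card (centralizer ((P : Subgroup G) : Set G)) = c) {x : G}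
    (hx : orderOf x = p) :
    (∃ P : Sylow p G, (P : Subgroup G) = zpowers x ∧
      centralizer ({x} : Set G) = centralizer ((P : Subgroup G) : Set G)) ∧
    Nat.card (centralizer ({x} : Set G)) = c := by
  have h1 : IsPGroup p (Subgroup.zpowers x) := by
    rw [IsPGroup.iff_card]
    exact ⟨1, by rw [Nat.card_zpowers, hx, pow_one]⟩
  obtain ⟨Q, hQ⟩ := h1.exists_le_sylow
  have h2 : (Q : Subgroup G) = Subgroup.zpowers x :=
    (Subgroup.eq_of_le_of_card_ge hQ (by rw [Nat.card_zpowers, hx, hP Q])).symm
  have h3 : centralizer ({x} : Set G) = centralizer ((Q : Subgroup G) : Set G) := by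
    rw [h2, Subgroup.zpowers_eq_closure, Subgroup.centralizer_closure]
  exact ⟨⟨Q, h2, h3⟩, by rw [h3, hc Q]⟩

theorem card_class_three (h : Nat.card G = 168) {x : G} (hx : orderOf x = 3) :
    Nat.card {g : G // IsConj x g} = 56 := by
  obtain ⟨-, h1⟩ := card_centralizer_of_prime (fun P => ((three h).2 P).1)
    (fun P => ((three h).2 P).2.1) hx
  have h2 := card_class_mul_card_centralizer x
  rw [h1, h] at h2
  omega

theorem card_class_seven (h : Nat.card G = 168) {x : G} (hx : orderOf x = 7) :
    Nat.card {g : G // IsConj x g} = 24 := by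
  obtain ⟨-, h1⟩ := card_centralizer_of_prime (fun P => ((seven h).2 P).1)
    (fun P => ((seven h).2 P).2.1) hx
  have h2 := card_class_mul_card_centralizer x
  rw [h1, h] at h2
  omega

theorem exists_central (h : Nat.card G = 168) (T : Sylow 2 G) :
    ∃ z : G, z ∈ (T : Subgroup G) ∧ orderOf z = 2 ∧ centralizer ({z} : Set G) = T := by
  obtain ⟨a, ha, -⟩ := sylow_structure h T
  have ha' : orderOf (a : G) = 4 := by rw [Subgroup.orderOf_coe]; exact ha
  refine ⟨(a : G) ^ 2, pow_mem a.2 2, ?_, centralizer_sq h T a.2 ha'⟩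
  rw [orderOf_pow_of_dvd (by norm_num) (by rw [ha']; norm_num), ha']

theorem isConj_two (h : Nat.card G = 168) (s t : G) (hs : orderOf s = 2) (ht : orderOf t = 2) :
    IsConj s t := by
  obtain ⟨T⟩ := (inferInstance : Nonempty (Sylow 2 G))
  obtain ⟨z, hzT, hz2, hzC⟩ := exists_central h T
  have h1 := card_class_mul_card_centralizer z
  rw [hzC, card_sylow_two h T, h] at h1
  have h2 : ∀ g : G, orderOf g = 2 → IsConj z g := by
    apply isConj_of_card
    · intro g hg
      rw [orderOf_of_isConj hg]; exact hz2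
    · rw [card_order_two h]; omega
  exact (h2 s hs).symm.trans (h2 t ht)

/-- the centralizer of every involution is a Sylow 2-subgroup -/
theorem centralizer_involution (h : Nat.card G = 168) {z : G} (hz : orderOf z = 2) :
    ∃ T : Sylow 2 G, centralizer ({z} : Set G) = T := by
  obtain ⟨T, hT⟩ := (isPGroup_centralizer h hz).exists_le_sylow
  refine ⟨T, Subgroup.eq_of_le_of_card_ge hT ?_⟩
  have h1 := card_class_mul_card_centralizer z
  have h2 : Nat.card {g : G // IsConj z g} ≤ 21 := by
    rw [← card_order_two h]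
    refine Nat.card_le_card_of_injective (fun g : {g : G // IsConj z g} =>
      (⟨g.1, by rw [orderOf_of_isConj g.2]; exact hz⟩ : {g : G // orderOf g = 2})) ?_
    intro a b hab
    exact Subtype.ext (congrArg (fun z : {g : G // orderOf g = 2} => z.1) hab)
  rw [h] at h1
  rw [card_sylow_two h T]
  by_contra hcon
  push Not at hcon
  have : Nat.card {g : G // IsConj z g} * Nat.card (centralizer ({z} : Set G)) ≤ 21 * 7 :=
    Nat.mul_le_mul h2 (by omega)
  omega

theorem isConj_three (h : Nat.card G = 168) (s t : G) (hs : orderOf s = 3) (ht : orderOf t = 3) :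
    IsConj s t := by
  apply isConj_of_card (P := fun g => orderOf g = 3)
  · intro g hg
    rw [orderOf_of_isConj hg]; exact hs
  · rw [card_three h, card_class_three h hs]
  · exact ht

theorem card_centralizer_four (h : Nat.card G = 168) {x : G} (hx : orderOf x = 4) :
    Nat.card (centralizer ({x} : Set G)) = 4 := by
  have hp : IsPGroup 2 (Subgroup.zpowers x) := IsPGroup.of_card (n := 2) (by
      rw [Nat.card_zpowers, hx]; norm_num)
  obtain ⟨T, hT⟩ := hp.exists_le_sylow
  have hxT : x ∈ (T : Subgroup G) := hT (mem_zpowers x)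
  have h1 : centralizer ({x} : Set G) ≤ (T : Subgroup G) := by
    rw [← centralizer_sq h T hxT hx]
    intro y hy
    rw [Subgroup.mem_centralizer_singleton_iff] at hy ⊢
    exact ((show Commute y x from hy).pow_right 2).eq
  have h2 : Subgroup.zpowers x ≤ centralizer ({x} : Set G) := by
    rw [Subgroup.zpowers_le, Subgroup.mem_centralizer_singleton_iff]
  have h3 := Subgroup.card_dvd_of_le h2
  have h4 := Subgroup.card_dvd_of_le h1
  rw [Nat.card_zpowers, hx] at h3
  rw [card_sylow_two h T] at h4
  have h5 : Nat.card (centralizer ({x} : Set G)) ≠ 8 := by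
    intro h8
    have heq := Subgroup.eq_of_le_of_card_ge h1 (by rw [h8, card_sylow_two h T])
    have hx' : orderOf (⟨x, hxT⟩ : (T : Subgroup G)) = 4 := by rw [Subgroup.orderOf_mk]; exact hx
    obtain ⟨h6, -⟩ := structure_eight (card_sylow_two h T) (sylow_noncomm h T) hx'
    have hidx := index_of_order_four (card_sylow_two h T) hx'
    obtain ⟨b, hb⟩ : ∃ b : (T : Subgroup G), b ∉ zpowers (⟨x, hxT⟩ : (T : Subgroup G)) := by
      by_contra hcon
      push Not at hcon
      have : zpowers (⟨x, hxT⟩ : (T : Subgroup G)) = ⊤ := eq_top_iff.2 fun y _ => hcon y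
      rw [this, Subgroup.index_top] at hidx
      norm_num at hidx
    have h7 := congrArg (fun z : (T : Subgroup G) => (z : G)) (h6 b hb)
    have h9 : (b : G) ∈ centralizer ({x} : Set G) := by rw [heq]; exact b.2
    rw [Subgroup.mem_centralizer_singleton_iff] at h9
    have h10 : (b : G) * x * (b : G)⁻¹ = x⁻¹ := h7
    rw [h9] at h10
    have h11 : x = x⁻¹ := by rw [← h10]; group
    have h12 : x ^ 2 = 1 := by rw [pow_two]; nth_rw 2 [h11]; exact mul_inv_cancel x
    have h13 := orderOf_dvd_of_pow_eq_one h12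
    rw [hx] at h13; norm_num at h13
  have h6 := Nat.le_of_dvd (by norm_num) h4
  obtain ⟨k, hk⟩ := h3
  rw [hk] at h5 h6 ⊢
  have hpos : 0 < Nat.card (centralizer ({x} : Set G)) := Nat.card_pos
  omega

theorem isConj_four (h : Nat.card G = 168) (s t : G) (hs : orderOf s = 4) (ht : orderOf t = 4) :
    IsConj s t := by
  have h1 := card_class_mul_card_centralizer s
  rw [card_centralizer_four h hs, h] at h1
  apply isConj_of_card (P := fun g => orderOf g = 4)
  · intro g hg
    rw [orderOf_of_isConj hg]; exact hs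
  · rw [card_order_four h]; omega
  · exact ht

theorem not_isConj_inv (h : Nat.card G = 168) {x : G} (hx : orderOf x = 7) : ¬ IsConj x x⁻¹ := by
  intro hc
  obtain ⟨g, hg⟩ := isConj_iff.1 hc
  obtain ⟨⟨P, hP, hPC⟩, -⟩ := card_centralizer_of_prime (fun P => ((seven h).2 P).1)
    (fun P => ((seven h).2 P).2.1) hx
  have hgN : g ∈ normalizer ((P : Subgroup G) : Set G) := by
    apply Subgroup.mem_normalizer_fintype
    intro y hy
    have hy' : y ∈ zpowers x := by rw [← hP]; exact hy
    obtain ⟨k, rfl⟩ := hy'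
    change g * x ^ k * g⁻¹ ∈ (P : Subgroup G)
    rw [← conj_zpow, hg, hP]
    exact zpow_mem (inv_mem (mem_zpowers x)) k
  have hgo : orderOf g ∣ 21 := by
    have := orderOf_dvd_natCard (⟨g, hgN⟩ : normalizer ((P : Subgroup G) : Set G))
    rwa [Subgroup.orderOf_mk, ((seven h).2 P).2.2] at this
  have hg2 : Commute (g ^ 2) x := by
    have h1 : g ^ 2 * x * (g ^ 2)⁻¹ = x := by
      calc g ^ 2 * x * (g ^ 2)⁻¹ = g * (g * x * g⁻¹) * g⁻¹ := by rw [pow_two]; group
        _ = g * x⁻¹ * g⁻¹ := by rw [hg]
        _ = (g * x * g⁻¹)⁻¹ := by group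
        _ = x := by rw [hg, inv_inv]
    change g ^ 2 * x = x * g ^ 2
    calc g ^ 2 * x = g ^ 2 * x * (g ^ 2)⁻¹ * g ^ 2 := by group
      _ = x * g ^ 2 := by rw [h1]
  have hg22 : g = (g ^ 2) ^ 11 := by
    have h21 : g ^ 21 = 1 := orderOf_dvd_iff_pow_eq_one.1 hgo
    have : (g ^ 2) ^ 11 = g ^ 21 * g := by rw [← pow_mul, ← pow_succ]
    rw [this, h21, one_mul]
  have hcom : Commute g x := by
    rw [hg22]; exact hg2.pow_left 11
  have h11 : x = x⁻¹ := by
    rw [← hg]
    calc x = x * g * g⁻¹ := by group
      _ = g * x * g⁻¹ := by rw [hcom.eq]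
  have h12 : x ^ 2 = 1 := by rw [pow_two]; nth_rw 2 [h11]; exact mul_inv_cancel x
  have h13 := orderOf_dvd_of_pow_eq_one h12
  rw [hx] at h13; norm_num at h13

end H21.Order168
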