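import Cfsg.Agent.Lib.H21.Order168c

set_option autoImplicit false
set_option linter.unusedSectionVars false

/-! Local structure of simple groups of order 168, part 4: Klein four-subgroups. -/

namespace H21.Order168

open Subgroup MulAction H21.SimpleBasic H21.SylowTools H21.CountPrime H21.PrimeAct H21.PrimeCent
  H21.PrimeStruct H21.CountElts H21.SylowInter H21.SylowSub

attribute [local instance] fact7 fact3

section V4

variable {G : Type*} [Group G]

/-- the four-group generated by two commuting involutions -/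
def V4 (z b : G) (hz : z * z = 1) (hb : b * b = 1) (hc : b * z = z * b) : Subgroup G where
  carrier := {x | x = 1 ∨ x = z ∨ x = b ∨ x = z * b}
  one_mem' := Or.inl rfl
  mul_mem' := by
    have e1 : z * (z * b) = b := by rw [← mul_assoc, hz, one_mul]
    have e2 : b * (z * b) = z := by rw [← mul_assoc, hc, mul_assoc, hb, mul_one]
    have e3 : z * b * z = b := by rw [← hc, mul_assoc, hz, mul_one]
    have e4 : z * b * b = z := by rw [mul_assoc, hb, mul_one]
    have e5 : z * b * (z * b) = 1 := by rw [← mul_assoc, e3, hb]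
    rintro x y (rfl | rfl | rfl | rfl) (rfl | rfl | rfl | rfl) <;>
      simp [hz, hb, hc, e1, e2, e3, e4, e5]
  inv_mem' := by
    have i1 : z⁻¹ = z := inv_eq_of_mul_eq_one_left hz
    have i2 : b⁻¹ = b := inv_eq_of_mul_eq_one_left hb
    rintro x (rfl | rfl | rfl | rfl) <;> simp [i1, i2, hc]

theorem mem_V4 {z b : G} {hz : z * z = 1} {hb : b * b = 1} {hc : b * z = z * b} {x : G} :
    x ∈ V4 z b hz hb hc ↔ (x = 1 ∨ x = z ∨ x = b ∨ x = z * b) := Iff.rfl

theorem card_V4 {z b : G} {hz : z * z = 1} {hb : b * b = 1} {hc : b * z = z * b}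
    (hz1 : z ≠ 1) (hb1 : b ≠ 1) (hzb : z ≠ b) : Nat.card (V4 z b hz hb hc) = 4 := by
  classical
  have h1 : ((V4 z b hz hb hc : Subgroup G) : Set G) = (({1, z, b, z * b} : Finset G) : Set G) := by
    ext x
    simp only [SetLike.mem_coe, mem_V4, Finset.coe_insert, Finset.coe_singleton,
      Set.mem_insert_iff, Set.mem_singleton_iff]
  have h2 : Nat.card (V4 z b hz hb hc) = ({1, z, b, z * b} : Finset G).card := by
    rw [← Set.ncard_coe_finset, ← h1]
    rfl
  have n1 : z * b ≠ 1 := fun h => hzb (mul_right_cancel (h.trans hb.symm))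
  have n2 : z * b ≠ z := fun h => hb1 (by simpa using h)
  have n3 : z * b ≠ b := fun h => hz1 (by simpa using h)
  rw [h2, Finset.card_insert_of_notMem, Finset.card_insert_of_notMem,
    Finset.card_insert_of_notMem, Finset.card_singleton]
  · simpa using n3.symm
  · simp [hzb, n2.symm]
  · simp [hz1.symm, hb1.symm, n1.symm]

theorem isKleinFour_V4 {z b : G} {hz : z * z = 1} {hb : b * b = 1} {hc : b * z = z * b}
    (hz1 : z ≠ 1) (hb1 : b ≠ 1) (hzb : z ≠ b) : IsKleinFour (V4 z b hz hb hc) := by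
  have h4 := card_V4 (hz := hz) (hb := hb) (hc := hc) hz1 hb1 hzb
  refine ⟨h4, ?_⟩
  have h1 : Monoid.exponent (V4 z b hz hb hc) ∣ 2 := by
    refine Monoid.exponent_dvd_of_forall_pow_eq_one ?_
    rintro ⟨x, hx⟩
    apply Subtype.ext
    change x ^ 2 = 1
    rcases mem_V4.1 hx with rfl | rfl | rfl | rfl
    · simp
    · rw [sq, hz]
    · rw [sq, hb]
    · rw [sq]
      calc z * b * (z * b) = z * (b * z) * b := by group
        _ = 1 := by rw [hc]; rw [← mul_assoc, hz, one_mul, hb]
  rcases (Nat.dvd_prime Nat.prime_two).1 h1 with h | h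
  · exfalso
    have hs := Monoid.exp_eq_one_iff.1 h
    have : Nat.card (V4 z b hz hb hc) ≤ 1 := Finite.card_le_one_iff_subsingleton.2 hs
    omega
  · exact h

theorem eq_V4 {U : Subgroup G} [hU : IsKleinFour U] {z b : G} (hz : z * z = 1) (hb : b * b = 1)
    (hc : b * z = z * b) (hz1 : z ≠ 1) (hb1 : b ≠ 1) (hzb : z ≠ b) (hzU : z ∈ U) (hbU : b ∈ U) :
    U = V4 z b hz hb hc := by
  symm
  have : Finite U := Nat.finite_of_card_ne_zero (by rw [hU.card_four]; norm_num)
  refine Subgroup.eq_of_le_of_card_ge ?_ ?_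
  · intro x hx
    rcases mem_V4.1 hx with rfl | rfl | rfl | rfl
    · exact U.one_mem
    · exact hzU
    · exact hbU
    · exact U.mul_mem hzU hbU
  · rw [hU.card_four, card_V4 hz1 hb1 hzb]

theorem sq_of_klein {U : Subgroup G} [hU : IsKleinFour U] {x : G} (hx : x ∈ U) : x * x = 1 :=
  congrArg (fun z : U => z.1) (IsKleinFour.mul_self (⟨x, hx⟩ : U))

end V4

variable {G : Type*} [Group G] [Finite G] [IsSimpleGroup G]

theorem sylow_structure' (h : Nat.card G = 168) (T : Sylow 2 G) :
    ∃ a : G, a ∈ (T : Subgroup G) ∧ orderOf a = 4 ∧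
      (∀ b ∈ (T : Subgroup G), b ∉ zpowers a → b * a * b⁻¹ = a⁻¹ ∧ b * b = 1) ∧
      (∀ b ∈ (T : Subgroup G), ∀ c ∈ (T : Subgroup G), b ∉ zpowers a → c ∉ zpowers a →
        b * c ∈ zpowers a) ∧ ∃ b ∈ (T : Subgroup G), b ∉ zpowers a := by
  obtain ⟨a, ha4, hi, h1, h2⟩ := sylow_structure h T
  have key : ∀ b (hb : b ∈ (T : Subgroup G)), (⟨b, hb⟩ : (T : Subgroup G)) ∈ zpowers a ↔
      b ∈ zpowers (a : G) := by
    intro b hb
    constructor
    · rintro ⟨k, hk⟩
      exact ⟨k, by simpa using congrArg (fun z : (T : Subgroup G) => z.1) hk⟩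
    · rintro ⟨k, hk⟩
      exact ⟨k, Subtype.ext (by simpa using hk)⟩
  refine ⟨a, a.2, by rw [Subgroup.orderOf_coe, ha4], ?_, ?_, ?_⟩
  · intro b hb hba
    have h3 := h1 ⟨b, hb⟩ (fun hh => hba ((key b hb).1 hh))
    have h4 := h2 ⟨b, hb⟩ (fun hh => hba ((key b hb).1 hh))
    refine ⟨congrArg (fun z : (T : Subgroup G) => z.1) h3, ?_⟩
    rw [← sq]
    exact congrArg (fun z : (T : Subgroup G) => z.1) h4
  · intro b hb c hc hba hca
    have h3 := Subgroup.mul_mem_iff_of_index_two hi (a := ⟨b, hb⟩) (b := ⟨c, hc⟩)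
    have h4 : (⟨b, hb⟩ : (T : Subgroup G)) * ⟨c, hc⟩ ∈ zpowers a := by
      rw [h3, key, key]
      exact ⟨fun hh => absurd hh hba, fun hh => absurd hh hca⟩
    exact (key (b * c) (mul_mem hb hc)).1 h4
  · by_contra hcon
    push Not at hcon
    have : zpowers a = ⊤ := by
      rw [eq_top_iff]
      rintro ⟨b, hb⟩ -
      exact (key b hb).2 (hcon b hb)
    rw [this, Subgroup.index_top] at hi
    norm_num at hi

theorem klein_structure (h : Nat.card G = 168) (T : Sylow 2 G) :
    ∃ z b c : G, (z ∈ (T : Subgroup G) ∧ b ∈ (T : Subgroup G) ∧ c ∈ (T : Subgroup G)) ∧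
      (z * z = 1 ∧ b * b = 1 ∧ c * c = 1 ∧ b * z = z * b ∧ c * z = z * c) ∧
      (z ≠ 1 ∧ b ≠ 1 ∧ c ≠ 1 ∧ z ≠ b ∧ z ≠ c) ∧ (c ≠ b ∧ c ≠ z * b ∧ c * b ≠ b * c) ∧
      centralizer ({z} : Set G) = T ∧
      ∀ U : Subgroup G, U ≤ (T : Subgroup G) → IsKleinFour U → z ∈ U ∧ (b ∈ U ∨ c ∈ U) := by
  obtain ⟨a, haT, ha4, h1, h2, b, hbT, hba⟩ := sylow_structure' h T
  have a4 : a * a * (a * a) = 1 := by
    have := pow_orderOf_eq_one a
    rw [ha4] at this
    calc a * a * (a * a) = a ^ 4 := by simp only [pow_succ, pow_zero, one_mul, mul_assoc]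
      _ = 1 := this
  have a2 : a * a ≠ 1 := by
    intro hh
    have : orderOf a ∣ 2 := orderOf_dvd_of_pow_eq_one (by rw [sq, hh])
    rw [ha4] at this
    omega
  have a1 : a ≠ 1 := fun hh => a2 (by rw [hh, one_mul])
  have haz : a ∈ zpowers a := mem_zpowers a
  have hzz : a * a ∈ zpowers a := mul_mem haz haz
  obtain ⟨hb1, hbb⟩ := h1 b hbT hba
  have bi : b⁻¹ = b := inv_eq_of_mul_eq_one_left hbb
  rw [bi] at hb1
  have hba' : b * a = a⁻¹ * b := by
    calc b * a = b * a * (b * b) := by rw [hbb, mul_one]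
      _ = (b * a * b) * b := by group
      _ = a⁻¹ * b := by rw [hb1]
  have ai : a⁻¹ = a * a * a := by
    rw [inv_eq_iff_mul_eq_one]
    calc a * (a * a * a) = a * a * (a * a) := by simp only [mul_assoc]
      _ = 1 := a4
  have hcc : a * b * (a * b) = 1 := by
    calc a * b * (a * b) = a * (b * a) * b := by group
      _ = a * (a⁻¹ * b) * b := by rw [hba']
      _ = b * b := by group
      _ = 1 := hbb
  have hbz : b * (a * a) = a * a * b := by
    calc b * (a * a) = (b * a) * a := (mul_assoc _ _ _).symm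
      _ = (a⁻¹ * b) * a := by rw [hba']
      _ = a⁻¹ * (b * a) := mul_assoc _ _ _
      _ = a⁻¹ * (a⁻¹ * b) := by rw [hba']
      _ = a⁻¹ * a⁻¹ * b := (mul_assoc _ _ _).symm
      _ = (a * a * (a * a)) * (a⁻¹ * a⁻¹ * b) := by rw [a4, one_mul]
      _ = a * a * b := by simp only [mul_assoc, mul_inv_cancel_left]
  have hbne : ∀ x ∈ zpowers a, x ≠ b := fun x hx hh => hba (hh ▸ hx)
  have hcne : ∀ x ∈ zpowers a, x ≠ a * b := by
    intro x hx hh
    apply hba
    have : b = a⁻¹ * x := by rw [hh]; group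
    rw [this]
    exact mul_mem (inv_mem haz) hx
  refine ⟨a * a, b, a * b, ⟨mul_mem haT haT, hbT, mul_mem haT hbT⟩,
    ⟨a4, hbb, hcc, hbz, ?_⟩, ⟨a2, (hbne 1 (one_mem _)).symm, (hcne 1 (one_mem _)).symm,
      hbne _ hzz, hcne _ hzz⟩, ⟨?_, ?_, ?_⟩, ?_, ?_⟩
  · calc a * b * (a * a) = a * (b * (a * a)) := mul_assoc _ _ _
      _ = a * (a * a * b) := by rw [hbz]
      _ = a * a * (a * b) := by simp only [mul_assoc]
  · intro hh
    exact a1 (by simpa using hh)
  · intro hh
    have : a = a * a := mul_right_cancel hh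
    exact a1 (by simpa using this)
  · intro hh
    have e1 : a * b * b = a := by rw [mul_assoc, hbb, mul_one]
    have e2 : b * (a * b) = a⁻¹ := by rw [← mul_assoc, hb1]
    rw [e1, e2] at hh
    apply a2
    nth_rw 1 [hh]
    group
  · have := centralizer_sq h T haT ha4
    rwa [sq] at this
  · intro U hUT hU
    have hT8 := card_sylow_two h T
    have hi : (U.subgroupOf (T : Subgroup G)).index = 2 := by
      have h5 := Subgroup.card_mul_index (U.subgroupOf (T : Subgroup G))
      have h6 : Nat.card (U.subgroupOf (T : Subgroup G)) = 4 := by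
        rw [Nat.card_congr (Subgroup.subgroupOfEquivOfLe hUT).toEquiv, hU.card_four]
      rw [h6, hT8] at h5
      omega
    have hzU : a * a ∈ U := by
      have := Subgroup.sq_mem_of_index_two hi (⟨a, haT⟩ : (T : Subgroup G))
      rw [Subgroup.mem_subgroupOf] at this
      rw [← sq]
      exact this
    refine ⟨hzU, ?_⟩
    obtain ⟨d, hdU, hda⟩ : ∃ d ∈ U, d ∉ zpowers a := by
      by_contra hcon
      push Not at hcon
      have h5 : U = zpowers a := Subgroup.eq_of_le_of_card_ge hcon
        (by rw [Nat.card_zpowers, ha4, hU.card_four])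
      have h6 : a ∈ U := by rw [h5]; exact haz
      exact a2 (sq_of_klein h6)
    have hdb := h2 d (hUT hdU) b hbT hda hba
    rw [mem_zpowers_iff] at hdb
    obtain ⟨k, hk⟩ := hdb
    have h5 : a ^ k = a ^ (k % 4).toNat := by
      rw [← zpow_natCast, Int.toNat_of_nonneg (Int.emod_nonneg _ (by norm_num))]
      have : (4 : ℤ) = (orderOf a : ℤ) := by rw [ha4]; rfl
      rw [this, zpow_mod_orderOf]
    have h6 : (k % 4).toNat < 4 := by omega
    rw [h5] at hk
    have h7 : d = a ^ (k % 4).toNat * b := by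
      rw [hk, mul_assoc, hbb, mul_one]
    have hz' : ∀ y, a * a * y ∈ U → y ∈ U := by
      intro y hy
      have := mul_mem hzU hy
      rwa [← mul_assoc, a4, one_mul] at this
    generalize (k % 4).toNat = j at h6 h7
    interval_cases j
    · left
      rw [pow_zero, one_mul] at h7
      rwa [← h7]
    · right
      rw [pow_one] at h7
      rwa [← h7]
    · left
      rw [sq] at h7
      exact hz' b (by rwa [← h7])
    · right
      apply hz'
      have : a * a * (a * b) = d := by
        rw [h7]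
        simp only [pow_succ, pow_zero, one_mul, mul_assoc]
      rwa [this]

theorem card_klein (h : Nat.card G = 168) (T : Sylow 2 G) :
    Nat.card {U : Subgroup G // U ≤ (T : Subgroup G) ∧ IsKleinFour U} = 2 := by
  obtain ⟨z, b, c, ⟨hzT, hbT, hcT⟩, ⟨hz, hb, hc, hbz, hcz⟩, ⟨hz1, hb1, hc1, hzb, hzc⟩,
    ⟨hcb, hczb, hncomm⟩, hC, hU⟩ := klein_structure h T
  have h1 : {U : Subgroup G | U ≤ (T : Subgroup G) ∧ IsKleinFour U} =
      {V4 z b hz hb hbz, V4 z c hz hc hcz} := by
    ext U
    simp only [Set.mem_ofPred_eq, Set.mem_insert_iff, Set.mem_singleton_iff]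
    constructor
    · rintro ⟨h2, h3⟩
      obtain ⟨h4, h5 | h5⟩ := hU U h2 h3
      · left
        exact eq_V4 hz hb hbz hz1 hb1 hzb h4 h5
      · right
        exact eq_V4 hz hc hcz hz1 hc1 hzc h4 h5
    · rintro (rfl | rfl)
      · refine ⟨?_, isKleinFour_V4 hz1 hb1 hzb⟩
        intro x hx
        rcases mem_V4.1 hx with rfl | rfl | rfl | rfl
        · exact one_mem _
        · exact hzT
        · exact hbT
        · exact mul_mem hzT hbT
      · refine ⟨?_, isKleinFour_V4 hz1 hc1 hzc⟩
        intro x hx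
        rcases mem_V4.1 hx with rfl | rfl | rfl | rfl
        · exact one_mem _
        · exact hzT
        · exact hcT
        · exact mul_mem hzT hcT
  have h2 : V4 z b hz hb hbz ≠ V4 z c hz hc hcz := by
    intro hh
    have h3 : c ∈ V4 z b hz hb hbz := by
      rw [hh]
      exact mem_V4.2 (Or.inr (Or.inr (Or.inl rfl)))
    rcases mem_V4.1 h3 with h4 | h4 | h4 | h4
    · exact hc1 h4
    · exact hzc h4.symm
    · exact hcb h4
    · exact hczb h4
  change ({U : Subgroup G | U ≤ (T : Subgroup G) ∧ IsKleinFour U} : Set (Subgroup G)).ncard = 2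
  rw [h1, Set.ncard_pair h2]

/-- a four-group in `T` is normalized by `T` -/
theorem le_normalizer_klein (h : Nat.card G = 168) (T : Sylow 2 G) {U : Subgroup G}
    (hUT : U ≤ (T : Subgroup G)) (hU : IsKleinFour U) :
    (T : Subgroup G) ≤ normalizer (U : Set G) := by
  have hT8 := card_sylow_two h T
  have hi : (U.subgroupOf (T : Subgroup G)).index = 2 := by
    have h5 := Subgroup.card_mul_index (U.subgroupOf (T : Subgroup G))
    have h6 : Nat.card (U.subgroupOf (T : Subgroup G)) = 4 := by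
      rw [Nat.card_congr (Subgroup.subgroupOfEquivOfLe hUT).toEquiv, hU.card_four]
    rw [h6, hT8] at h5
    omega
  have hn : (U.subgroupOf (T : Subgroup G)).Normal := Subgroup.normal_of_index_eq_two hi
  exact (Subgroup.normal_subgroupOf_iff_le_normalizer hUT).1 hn

theorem centralizer_klein (h : Nat.card G = 168) (T : Sylow 2 G) {U : Subgroup G}
    (hUT : U ≤ (T : Subgroup G)) (hU : IsKleinFour U) :
    centralizer (U : Set G) = U := by
  have hT8 := card_sylow_two h T
  obtain ⟨z, b, c, ⟨hzT, hbT, hcT⟩, ⟨hz, hb, hc, hbz, hcz⟩, ⟨hz1, hb1, hc1, hzb, hzc⟩,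
    ⟨hcb, hczb, hncomm⟩, hC, hK⟩ := klein_structure h T
  obtain ⟨hzU, hbc⟩ := hK U hUT hU
  have h0 : U ≤ centralizer (U : Set G) := by
    intro x hx
    rw [mem_centralizer_iff]
    intro y hy
    have := IsKleinFour.isMulCommutative (G := U)
    exact congrArg (fun z : U => z.1) (mul_comm' (⟨y, hy⟩ : U) ⟨x, hx⟩)
  have h1 : centralizer (U : Set G) ≤ (T : Subgroup G) := by
    rw [← hC]
    exact Subgroup.centralizer_le (by simpa using hzU)
  symm
  refine Subgroup.eq_of_le_of_card_ge h0 ?_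
  have h2 : Nat.card (centralizer (U : Set G)) ∣ 8 := by
    rw [← hT8]
    exact Subgroup.card_dvd_of_le h1
  have h3 : 4 ∣ Nat.card (centralizer (U : Set G)) := by
    rw [← hU.card_four]
    exact Subgroup.card_dvd_of_le h0
  have h4 : Nat.card (centralizer (U : Set G)) ≠ 8 := by
    intro h5
    have h6 : centralizer (U : Set G) = T :=
      Subgroup.eq_of_le_of_card_ge h1 (by rw [hT8, h5])
    rcases hbc with hh | hh
    · have h7 : c ∈ centralizer (U : Set G) := by rw [h6]; exact hcT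
      exact hncomm (mem_centralizer_iff.1 h7 b hh).symm
    · have h7 : b ∈ centralizer (U : Set G) := by rw [h6]; exact hbT
      exact hncomm (mem_centralizer_iff.1 h7 c hh)
  rw [hU.card_four]
  have h5 := Nat.le_of_dvd (by norm_num) h2
  interval_cases (Nat.card (centralizer (U : Set G))) <;> omega

end H21.Order168
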