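import Mathlib
import Cfsg.Agent.Lib.H54.RA0
import Cfsg.Agent.Lib.H16.Cox8

/-! S3330 piece U3 (helper21 for helper54). -/

set_option autoImplicit false
set_option maxRecDepth 100000

namespace H21.RU3

open Equiv Subgroup H54.RA

/-- two homomorphisms from `Perm (Fin 3)` agreeing on adjacent swaps agree. -/
theorem ext3 {G : Type*} [Group G] {f g : Perm (Fin 3) →* G} (h0 : f (swap 0 1) = g (swap 0 1))
    (h1 : f (swap 1 2) = g (swap 1 2)) : f = g := by
  have hc := Equiv.Perm.mclosure_swap_castSucc_succ 2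
  refine MonoidHom.eq_of_eqOn_denseM hc ?_
  rintro _ ⟨i, rfl⟩
  fin_cases i
  · exact h0
  · exact h1

theorem ext5 {G : Type*} [Group G] {f g : Perm (Fin 5) →* G} (h0 : f (swap 0 4) = g (swap 0 4))
    (h1 : f (swap 4 1) = g (swap 4 1)) (h2 : f (swap 1 2) = g (swap 1 2))
    (h3 : f (swap 2 3) = g (swap 2 3)) : f = g := by
  have e01 : (swap 0 1 : Perm (Fin 5)) = swap 0 4 * swap 4 1 * swap 0 4 := by decide +kernel
  have e34 : (swap 3 4 : Perm (Fin 5)) = swap 2 3 * (swap 1 2 * swap 4 1 * swap 1 2) * swap 2 3 := by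
    decide +kernel
  have hc := Equiv.Perm.mclosure_swap_castSucc_succ 4
  refine MonoidHom.eq_of_eqOn_denseM hc ?_
  rintro _ ⟨i, rfl⟩
  fin_cases i
  · change f (swap 0 1) = g (swap 0 1)
    rw [e01]; simp only [map_mul, h0, h1]
  · exact h2
  · exact h3
  · change f (swap 3 4) = g (swap 3 4)
    rw [e34]; simp only [map_mul, h1, h2, h3]

/-- a homomorphism from `Perm (Fin 8)` not killing a three-cycle is injective. -/
theorem inj8 {G : Type*} [Group G] (f : Perm (Fin 8) →* G) {c : Perm (Fin 8)} (hc : Perm.sign c = 1)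
    (h : f c ≠ 1) : Function.Injective f := by
  rw [← MonoidHom.ker_eq_bot_iff]
  by_contra hne
  have hn : Nontrivial f.ker := (Subgroup.nontrivial_iff_ne_bot _).2 hne
  have := Equiv.Perm.alternatingGroup_le_of_normal (α := Fin 8) (by simp) (N := f.ker) hn
  exact h (this (by simpa [Perm.mem_alternatingGroup] using hc))


/-- the relabelling `0-1-2-3-7-4-5-6` -/
def rho : Perm (Fin 8) := swap 4 7 * swap 5 7 * swap 6 7

theorem rho0 : rho * swap 0 1 * rho⁻¹ = swap 0 1 := by decide +kernel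
theorem rho1 : rho * swap 1 2 * rho⁻¹ = swap 1 2 := by decide +kernel
theorem rho2 : rho * swap 2 3 * rho⁻¹ = swap 2 3 := by decide +kernel
theorem rho3 : rho * swap 3 4 * rho⁻¹ = swap 3 7 := by decide +kernel
theorem rho4 : rho * swap 4 5 * rho⁻¹ = swap 7 4 := by decide +kernel
theorem rho5 : rho * swap 5 6 * rho⁻¹ = swap 4 5 := by decide +kernel
theorem rho6 : rho * swap 6 7 * rho⁻¹ = swap 5 6 := by decide +kernel

theorem emb0 : emb (swap 0 1, 1) = swap 0 1 := by decide +kernel
theorem emb1 : emb (swap 1 2, 1) = swap 1 2 := by decide +kernel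
theorem emb3 : emb (1, swap 0 4) = swap 3 7 := by decide +kernel
theorem emb4 : emb (1, swap 4 1) = swap 7 4 := by decide +kernel
theorem emb5 : emb (1, swap 1 2) = swap 4 5 := by decide +kernel
theorem emb6 : emb (1, swap 2 3) = swap 5 6 := by decide +kernel


/-- the Coxeter path in `G`. -/
def path {G : Type*} [Group G] (ψ : PP →* G) (a : G) : Fin 7 → G :=
  ![ψ (swap 0 1, 1), ψ (swap 1 2, 1), a, ψ (1, t5), ψ (1, swap 4 1), ψ (1, swap 1 2), ψ (1, swap 2 3)]

def pp : Fin 7 → PP :=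
  ![(swap 0 1, 1), (swap 1 2, 1), (1, 1), (1, t5), (1, swap 4 1), (1, swap 1 2), (1, swap 2 3)]

theorem u3_core {G : Type*} [Group G] (cox : ∀ (x : Fin 7 → G), (∀ i, x i * x i = 1) →
      (∀ i : Fin 6, (x i.castSucc * x i.succ) ^ 3 = 1) →
      (∀ i j : Fin 7, i.val + 1 < j.val → x i * x j = x j * x i) →
      ∃ f : Perm (Fin 8) →* G, ∀ i : Fin 7, f (swap i.castSucc i.succ) = x i)
    {ψ : PP →* G} {n : G} (h : UD ψ n) {a : G}
    (ha : a = n * ψ (1, swap 3 0) * n⁻¹ ∨ a = n * ψ (1, swap 3 4) * n⁻¹)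
    (hab : a * ψ (1, swap 4 1) = ψ (1, swap 4 1) * a) :
    ∃ f : Perm (Fin 8) →* G, Function.Injective f ∧ ∀ k, f (emb k) = ψ k := by
  have hni : n⁻¹ = n := inv_eq_of_mul_eq_one_left h.nn
  -- a single permutation `v` with `a = n ψ (1, v) n⁻¹`
  obtain ⟨v, hav, hv⟩ : ∃ v : Perm (Fin 5), a = n * ψ (1, v) * n⁻¹ ∧ (v = swap 3 0 ∨ v = swap 3 4) := by
    rcases ha with ha | ha
    · exact ⟨_, ha, Or.inl rfl⟩
    · exact ⟨_, ha, Or.inr rfl⟩
  have hv1 : v * v = 1 := by rcases hv with rfl | rfl <;> decide +kernel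
  have hv2 : (swap 2 3 * v) ^ 3 = 1 := by rcases hv with rfl | rfl <;> decide +kernel
  have hv3 : (v * swap 0 4) ^ 3 = 1 := by rcases hv with rfl | rfl <;> decide +kernel
  have hv4 : swap 1 2 * v = v * swap 1 2 := by rcases hv with rfl | rfl <;> decide +kernel
  -- conjugation by `n`
  let F : PP →* G := (MulAut.conj n).toMonoidHom.comp ψ
  have hF : ∀ k, F k = n * ψ k * n⁻¹ := fun k => rfl
  have ea : a = F (1, v) := hav
  have e0 : ψ (swap 0 1, 1) = F (1, swap 1 2) := by rw [hF, h.n3]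
  have e1 : ψ (swap 1 2, 1) = F (1, swap 2 3) := by
    have h1 : ((1, swap 2 3) : PP) = (1, swap 1 2) * (1, d5) := by
      ext1
      · rfl
      · change swap 2 3 = swap 1 2 * d5
        decide +kernel
    have h2 : ((swap 1 2, 1) : PP) = (swap 0 1, 1) * (c3, 1) := by
      ext1
      · change swap 1 2 = swap 0 1 * c3
        decide +kernel
      · rfl
    rw [h1, map_mul, ← e0, hF (1, d5), h.n2, ← map_mul, ← h2]
  have e3 : ψ (1, t5) = F (1, t5) := by
    rw [hF, h.nt]; group
  -- the other direction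
  have g5 : ψ (1, swap 1 2) = F (swap 0 1, 1) := by
    rw [hF, e0, hF, hni]
    calc ψ (1, swap 1 2) = (n * n) * ψ (1, swap 1 2) * (n * n) := by rw [h.nn]; group
      _ = n * (n * ψ (1, swap 1 2) * n) * n := by group
  have g6 : ψ (1, swap 2 3) = F (swap 1 2, 1) := by
    rw [hF, e1, hF, hni]
    calc ψ (1, swap 2 3) = (n * n) * ψ (1, swap 2 3) * (n * n) := by rw [h.nn]; group
      _ = n * (n * ψ (1, swap 2 3) * n) * n := by group
  have sq : ∀ p : PP, p * p = 1 → ψ p * ψ p = 1 := fun p hp => by rw [← map_mul, hp, map_one]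
  have cm : ∀ (f : PP →* G) (p q : PP), p * q = q * p → f p * f q = f q * f p := fun f p q hp => by
    rw [← map_mul, hp, map_mul]
  have cu : ∀ (f : PP →* G) (p q : PP), (p * q) ^ 3 = 1 → (f p * f q) ^ 3 = 1 := fun f p q hp => by
    rw [← map_mul, ← map_pow, hp, map_one]
  obtain ⟨f', hf'⟩ := cox (path ψ a) (by
      intro i
      fin_cases i
      · exact sq (swap 0 1, 1) (by decide +kernel)
      · exact sq (swap 1 2, 1) (by decide +kernel)
      · change a * a = 1
        rw [ea, ← map_mul, show ((1, v) : PP) * (1, v) = 1 from Prod.ext rfl hv1, map_one]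
      · exact sq (1, t5) (by decide +kernel)
      · exact sq (1, swap 4 1) (by decide +kernel)
      · exact sq (1, swap 1 2) (by decide +kernel)
      · exact sq (1, swap 2 3) (by decide +kernel)) (by
      intro i
      fin_cases i
      · exact cu ψ (swap 0 1, 1) (swap 1 2, 1) (by decide +kernel)
      · change (ψ (swap 1 2, 1) * a) ^ 3 = 1
        rw [e1, ea]
        exact cu F _ _ (Prod.ext rfl hv2)
      · change (a * ψ (1, t5)) ^ 3 = 1
        rw [e3, ea]
        exact cu F _ _ (Prod.ext rfl hv3)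
      · exact cu ψ (1, t5) (1, swap 4 1) (by decide +kernel)
      · exact cu ψ (1, swap 4 1) (1, swap 1 2) (by decide +kernel)
      · exact cu ψ (1, swap 1 2) (1, swap 2 3) (by decide +kernel)) (by
      intro i j hij
      have c02 : ψ (swap 0 1, 1) * a = a * ψ (swap 0 1, 1) := by
        rw [e0, ea]; exact cm F _ _ (Prod.ext rfl hv4)
      have c25 : a * ψ (1, swap 1 2) = ψ (1, swap 1 2) * a := by
        rw [g5, ea]; exact cm F _ _ (Prod.ext (by simp) (by simp))
      have c26 : a * ψ (1, swap 2 3) = ψ (1, swap 2 3) * a := by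
        rw [g6, ea]; exact cm F _ _ (Prod.ext (by simp) (by simp))
      fin_cases i <;> fin_cases j <;> first
        | (exfalso; revert hij; decide)
        | exact c02
        | exact hab
        | exact c25
        | exact c26
        | exact cm ψ (pp 0) (pp 3) (by decide +kernel)
        | exact cm ψ (pp 0) (pp 4) (by decide +kernel)
        | exact cm ψ (pp 0) (pp 5) (by decide +kernel)
        | exact cm ψ (pp 0) (pp 6) (by decide +kernel)
        | exact cm ψ (pp 1) (pp 3) (by decide +kernel)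
        | exact cm ψ (pp 1) (pp 4) (by decide +kernel)
        | exact cm ψ (pp 1) (pp 5) (by decide +kernel)
        | exact cm ψ (pp 1) (pp 6) (by decide +kernel)
        | exact cm ψ (pp 3) (pp 5) (by decide +kernel)
        | exact cm ψ (pp 3) (pp 6) (by decide +kernel)
        | exact cm ψ (pp 4) (pp 6) (by decide +kernel))
  have ef : ∀ (i : Fin 7), f' (swap i.castSucc i.succ) = path ψ a i := hf'
  have f0 : f' (swap 0 1) = ψ (swap 0 1, 1) := hf' 0
  have f1 : f' (swap 1 2) = ψ (swap 1 2, 1) := hf' 1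
  have f3 : f' (swap 3 4) = ψ (1, t5) := hf' 3
  have f4 : f' (swap 4 5) = ψ (1, swap 4 1) := hf' 4
  have f5 : f' (swap 5 6) = ψ (1, swap 1 2) := hf' 5
  have f6 : f' (swap 6 7) = ψ (1, swap 2 3) := hf' 6
  let f : Perm (Fin 8) →* G := f'.comp (MulAut.conj rho⁻¹).toMonoidHom
  have hfr : ∀ p, f (rho * p * rho⁻¹) = f' p := by
    intro p
    change f' (rho⁻¹ * (rho * p * rho⁻¹) * rho⁻¹⁻¹) = f' p
    congr 1; group
  have key : ∀ k, f (emb k) = ψ k := by
    have h3 : f.comp (emb.comp (MonoidHom.inl _ _)) = ψ.comp (MonoidHom.inl _ _) := by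
      apply ext3
      · change f (emb (swap 0 1, 1)) = ψ (swap 0 1, 1)
        rw [emb0, ← rho0, hfr, f0]
      · change f (emb (swap 1 2, 1)) = ψ (swap 1 2, 1)
        rw [emb1, ← rho1, hfr, f1]
    have h5 : f.comp (emb.comp (MonoidHom.inr _ _)) = ψ.comp (MonoidHom.inr _ _) := by
      apply ext5
      · change f (emb (1, swap 0 4)) = ψ (1, swap 0 4)
        rw [emb3, ← rho3, hfr, f3]; rfl
      · change f (emb (1, swap 4 1)) = ψ (1, swap 4 1)
        rw [emb4, ← rho4, hfr, f4]
      · change f (emb (1, swap 1 2)) = ψ (1, swap 1 2)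
        rw [emb5, ← rho5, hfr, f5]
      · change f (emb (1, swap 2 3)) = ψ (1, swap 2 3)
        rw [emb6, ← rho6, hfr, f6]
    rintro ⟨k1, k2⟩
    have hk : ((k1, k2) : PP) = (k1, 1) * (1, k2) := by simp
    rw [hk, map_mul, map_mul, map_mul]
    have a1 := DFunLike.congr_fun h3 k1
    have a2 := DFunLike.congr_fun h5 k2
    change f (emb (k1, 1)) = ψ (k1, 1) at a1
    change f (emb (1, k2)) = ψ (1, k2) at a2
    rw [a1, a2]
  refine ⟨f, inj8 f (c := emb (c3, 1)) (by decide +kernel) ?_, key⟩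
  rw [key]
  intro h1
  have := h.inj (h1.trans (map_one ψ).symm)
  exact absurd this (by decide +kernel)

theorem u3 {G : Type*} [Group G] [Finite G] {ψ : PP →* G} {n : G} (h : UD ψ n) {a : G}
    (ha : a = n * ψ (1, swap 3 0) * n⁻¹ ∨ a = n * ψ (1, swap 3 4) * n⁻¹)
    (hab : a * ψ (1, swap 4 1) = ψ (1, swap 4 1) * a) :
    ∃ f : Perm (Fin 8) →* G, Function.Injective f ∧ ∀ k, f (emb k) = ψ k :=
  u3_core (fun x h1 h2 h3 => H16.Cox.cox8 x h1 h2 h3) h ha hab

end H21.RU3
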